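import Mathlib
import Cfsg.Agent.Lib.Helper18.LSDefs
import Cfsg.Agent.Lib.Helper18.WRDefs

/-!
# Project WR (helper18, S2347), piece MASCHKE: an invariant subspace of an invariant subspace of
a complex representation of a finite group has an invariant complement in it.
-/

set_option autoImplicit false

namespace Cfsg.Agent.Lib.Helper18.WR

open Matrix

universe u

variable {F : Type u} [Field F] {n : ℕ}

-- piece MASCHKE
theorem maschke_compl {G : Type*} [Group G] [Finite G] {E : Type*} [AddCommGroup E]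
    [Module ℂ E] (ω : Representation ℂ G E) (U U₀ : Submodule ℂ E)
    (hU : ∀ g, ∀ f ∈ U, ω g f ∈ U) (hU₀ : ∀ g, ∀ f ∈ U₀, ω g f ∈ U₀) (hle : U₀ ≤ U) :
    ∃ C : Submodule ℂ E, (∀ g, ∀ f ∈ C, ω g f ∈ C) ∧ C ≤ U ∧ U₀ ⊓ C = ⊥ ∧ U₀ ⊔ C = U := by
  haveI : NeZero ((Nat.card G : ℕ) : ℂ) := ⟨by exact_mod_cast Nat.card_pos.ne'⟩
  haveI : ComplementedLattice (Subrepresentation ω) := inferInstance
  obtain ⟨C₁, hC₁⟩ := exists_isCompl (⟨U₀, fun g v hv => hU₀ g v hv⟩ : Subrepresentation ω)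
  refine ⟨C₁.toSubmodule ⊓ U, ?_, inf_le_right, ?_, ?_⟩
  · intro g f hf
    exact ⟨C₁.apply_mem_toSubmodule g hf.1, hU g f hf.2⟩
  · have h1 : U₀ ⊓ C₁.toSubmodule = ⊥ :=
      congrArg Subrepresentation.toSubmodule hC₁.inf_eq_bot
    rw [← inf_assoc, h1, bot_inf_eq]
  · have h1 : U₀ ⊔ C₁.toSubmodule = ⊤ :=
      congrArg Subrepresentation.toSubmodule hC₁.sup_eq_top
    rw [← sup_inf_assoc_of_le _ hle, h1, top_inf_eq]

end Cfsg.Agent.Lib.Helper18.WR
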