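import Mathlib
import Cfsg.Agent.Lib.Helper18.LSDefs

/-!
# Project LS (helper18), S2333: piece COMEIG

A family of commuting involutions `T a` (`a` in an elementary abelian 2-group `A`) on a
finite-dimensional complex vector space, with `T a₀ ≠ 1`, has a common eigenvector whose
character is non-trivial at `a₀`.
-/

set_option autoImplicit false

namespace Cfsg.Agent.Lib.Helper18.LS

open Matrix

universe u

variable {F : Type u} [Field F] {n : ℕ}

-- piece COMEIG
theorem common_eigenvector {V : Type*} [AddCommGroup V] [Module ℂ V] [FiniteDimensional ℂ V]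
    {A : Type*} [AddCommGroup A] (T : A → V →ₗ[ℂ] V) (hT0 : T 0 = 1)
    (hTadd : ∀ a b : A, T (a + b) = T a * T b) (h2 : ∀ a : A, a + a = 0)
    (a₀ : A) (hne : T a₀ ≠ 1) :
    ∃ (v : V) (χ : A → ℂ), v ≠ 0 ∧ χ a₀ ≠ 1 ∧ χ 0 = 1 ∧
      (∀ a b : A, χ (a + b) = χ a * χ b) ∧ ∀ a : A, T a v = χ a • v := by
  classical
  have hinv : ∀ a (w : V), T a (T a w) = w := by
    intro a w
    have h := hTadd a a
    rw [h2 a, hT0] at h
    have h' := congrArg (fun f : V →ₗ[ℂ] V => f w) h
    simpa using h'.symm
  have hcomm : ∀ a b (w : V), T a (T b w) = T b (T a w) := by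
    intro a b w
    have h1 := hTadd a b
    have h2' := hTadd b a
    rw [add_comm b a, h1] at h2'
    have h' := congrArg (fun f : V →ₗ[ℂ] V => f w) h2'
    simpa using h'
  -- the `-1`-eigenspace of `T a₀`
  set K₀ : Submodule ℂ V := LinearMap.ker (T a₀ + 1) with hK₀
  have hK₀ne : K₀ ≠ ⊥ := by
    obtain ⟨w, hw⟩ : ∃ w, T a₀ w ≠ w := by
      by_contra h
      push_neg at h
      exact hne (LinearMap.ext h)
    intro hbot
    have hmem : T a₀ w - w ∈ K₀ := by
      rw [hK₀, LinearMap.mem_ker]
      simp [hinv]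
    rw [hbot, Submodule.mem_bot] at hmem
    exact hw (sub_eq_zero.mp hmem)
  let S : Set (Submodule ℂ V) := {W | W ≠ ⊥ ∧ W ≤ K₀ ∧ ∀ a, ∀ w ∈ W, T a w ∈ W}
  have hK₀S : K₀ ∈ S := by
    refine ⟨hK₀ne, le_refl _, ?_⟩
    intro a w hw
    rw [hK₀, LinearMap.mem_ker] at hw ⊢
    have h1 : (T a₀ + 1) (T a w) = T a ((T a₀ + 1) w) := by
      simp [hcomm a₀ a w]
    rw [h1, hw, map_zero]
  obtain ⟨W, hWS, hWmin⟩ := (wellFounded_lt (α := Submodule ℂ V)).has_min S ⟨K₀, hK₀S⟩
  obtain ⟨hWne, hWK, hWinv⟩ := hWS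
  have hdich : ∀ a, (∀ w ∈ W, T a w = w) ∨ (∀ w ∈ W, T a w = -w) := by
    intro a
    set Wp : Submodule ℂ V := W ⊓ LinearMap.ker (T a - 1) with hWp
    by_cases hbot : Wp = ⊥
    · right
      intro w hw
      have hmem : w + T a w ∈ Wp := by
        rw [hWp, Submodule.mem_inf, LinearMap.mem_ker]
        refine ⟨W.add_mem hw (hWinv a w hw), ?_⟩
        simp only [LinearMap.sub_apply, map_add, hinv, Module.End.one_apply]
        abel
      rw [hbot, Submodule.mem_bot] at hmem
      exact eq_neg_of_add_eq_zero_right hmem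
    · left
      have hWpS : Wp ∈ S := by
        refine ⟨hbot, inf_le_left.trans hWK, ?_⟩
        intro b w hw
        rw [hWp, Submodule.mem_inf, LinearMap.mem_ker] at hw ⊢
        refine ⟨hWinv b w hw.1, ?_⟩
        have h1 : T a w = w := by
          have h3 := hw.2
          simp only [LinearMap.sub_apply, Module.End.one_apply] at h3
          exact sub_eq_zero.mp h3
        simp only [LinearMap.sub_apply, Module.End.one_apply]
        rw [hcomm a b w, h1, sub_self]
      have hle : Wp ≤ W := inf_le_left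
      have heq : Wp = W := by
        by_contra hneq
        exact hWmin Wp hWpS (lt_of_le_of_ne hle hneq)
      intro w hw
      rw [← heq, hWp, Submodule.mem_inf, LinearMap.mem_ker] at hw
      have h3 := hw.2
      simp only [LinearMap.sub_apply, Module.End.one_apply] at h3
      exact sub_eq_zero.mp h3
  obtain ⟨v, hvW, hv0⟩ := Submodule.exists_mem_ne_zero_of_ne_bot hWne
  let χ : A → ℂ := fun a => if ∀ w ∈ W, T a w = w then 1 else -1
  have hχ : ∀ a, ∀ w ∈ W, T a w = χ a • w := by
    intro a w hw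
    by_cases h : ∀ w ∈ W, T a w = w
    · simp only [χ, if_pos h, one_smul]
      exact h w hw
    · simp only [χ, if_neg h, neg_smul, one_smul]
      rcases hdich a with h' | h'
      · exact absurd h' h
      · exact h' w hw
  refine ⟨v, χ, hv0, ?_, ?_, ?_, fun a => hχ a v hvW⟩
  · intro h1
    have h3 := hχ a₀ v hvW
    rw [h1, one_smul] at h3
    have h4 : (T a₀ + 1) v = 0 := by
      have h5 := hWK hvW
      rwa [hK₀, LinearMap.mem_ker] at h5
    have h5 : v + v = 0 := by
      simpa [h3] using h4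
    have h6 : (2 : ℂ) • v = 0 := by
      rw [two_smul]
      exact h5
    rcases smul_eq_zero.mp h6 with h | h
    · norm_num at h
    · exact hv0 h
  · have h : ∀ w ∈ W, T 0 w = w := by
      intro w _
      rw [hT0]
      rfl
    simp only [χ, if_pos h]
  · intro a b
    have h1 : T (a + b) v = χ (a + b) • v := hχ (a + b) v hvW
    have h2' : T (a + b) v = (χ a * χ b) • v := by
      rw [hTadd, Module.End.mul_apply, hχ b v hvW, map_smul, hχ a v hvW, smul_smul, mul_comm]
    have h3 : (χ (a + b) - χ a * χ b) • v = 0 := by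
      rw [sub_smul, ← h1, ← h2', sub_self]
    rcases smul_eq_zero.mp h3 with h | h
    · exact sub_eq_zero.mp h
    · exact absurd h hv0

end Cfsg.Agent.Lib.Helper18.LS
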