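import Mathlib
import Cfsg.Agent.Lib.Helper18.SLMDefs

set_option autoImplicit false

/-! Project SLM (S2332, helper18), piece ARITHW4 (helper28). -/

namespace Cfsg.Agent.Lib.Helper18.SLM

open Matrix

/-- the integer core of `arith_w4` -/
theorem arithw4_int (Q W : ℤ) (hQ : 2 ≤ Q) (hW : Q ^ 2 + Q + 1 ≤ W)
    (hZ : Q * W - 1 ∣ (Q - 1) * (Q * W + 1) * W * (W - 2)) : False := by
  have hcop : IsCoprime (Q * W - 1) W := ⟨-1, Q, by ring⟩
  have h1 : Q * W - 1 ∣ (Q - 1) * (Q * W + 1) * (W - 2) := by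
    apply hcop.dvd_of_dvd_mul_right
    have e : (Q - 1) * (Q * W + 1) * (W - 2) * W = (Q - 1) * (Q * W + 1) * W * (W - 2) := by
      ring
    rw [e]
    exact hZ
  have h2 : Q * W - 1 ∣ 2 * (Q - 1) * (W - 2) := by
    have e : (Q - 1) * (Q * W + 1) * (W - 2)
        = (Q * W - 1) * ((Q - 1) * (W - 2)) + 2 * (Q - 1) * (W - 2) := by ring
    rw [e] at h1
    exact (dvd_add_right (dvd_mul_right _ _)).1 h1
  have h3 : Q * W - 1 ∣ 2 * (Q - 1) * (2 * Q - 1) := by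
    have e : 2 * (Q - 1) * (2 * Q - 1)
        = (Q * W - 1) * (2 * (Q - 1)) - 2 * (Q - 1) * (W - 2) * Q := by ring
    rw [e]
    exact dvd_sub (dvd_mul_right _ _) (Dvd.dvd.mul_right h2 Q)
  have hpos : 0 < 2 * (Q - 1) * (2 * Q - 1) :=
    mul_pos (mul_pos two_pos (by linarith)) (by linarith)
  have h4 := Int.le_of_dvd hpos h3
  have h5 : Q * (Q ^ 2 + Q + 1) ≤ Q * W := mul_le_mul_of_nonneg_left hW (by linarith)
  have h6 : 0 ≤ (Q - 2) * (Q ^ 2 - Q + 5) :=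
    mul_nonneg (sub_nonneg.2 hQ) (by nlinarith)
  nlinarith

-- piece ARITHW4
theorem arith_w4 (q : ℕ) (hq : 2 ≤ q) (m : ℕ) (hm : 3 ≤ m) :
    ¬ ((wsum q m - 1) + (q ^ m - 1)) ∣ (q ^ (m + 1) - 1) * wsum q m * ((wsum q m - 1) - 1) := by
  intro h
  have hw3 : q ^ 2 + q + 1 ≤ wsum q m := by
    unfold wsum
    calc q ^ 2 + q + 1 = ∑ i ∈ Finset.range 3, q ^ i := by
          simp [Finset.sum_range_succ]
          ring
      _ ≤ ∑ i ∈ Finset.range m, q ^ i :=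
          Finset.sum_le_sum_of_subset (Finset.range_mono hm)
  have hgeoZ : ((q : ℤ) - 1) * (wsum q m : ℤ) = (q : ℤ) ^ m - 1 := by
    unfold wsum
    push_cast
    exact mul_geom_sum (q : ℤ) m
  generalize wsum q m = w at h hw3 hgeoZ
  have hq1 : 1 ≤ q ^ m := Nat.one_le_pow _ _ (by omega)
  have hq1' : 1 ≤ q ^ (m + 1) := Nat.one_le_pow _ _ (by omega)
  have hw1 : 1 ≤ w := by omega
  have hw2 : 1 ≤ w - 1 := by omega
  have hA : (((w - 1) + (q ^ m - 1) : ℕ) : ℤ) = (q : ℤ) * w - 1 := by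
    rw [Nat.cast_add, Nat.cast_sub hw1, Nat.cast_sub hq1]
    push_cast
    linarith
  have hB : (((q ^ (m + 1) - 1) * w * ((w - 1) - 1) : ℕ) : ℤ)
      = ((q : ℤ) - 1) * ((q : ℤ) * w + 1) * w * ((w : ℤ) - 2) := by
    rw [Nat.cast_mul, Nat.cast_mul, Nat.cast_sub hq1', Nat.cast_sub hw2, Nat.cast_sub hw1]
    push_cast
    have e : (q : ℤ) ^ (m + 1) - 1 = ((q : ℤ) - 1) * ((q : ℤ) * w + 1) := by
      rw [pow_succ]
      linear_combination (-(q : ℤ)) * hgeoZ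
    rw [e]
    ring
  have hZ := Int.natCast_dvd_natCast.2 h
  rw [hA, hB] at hZ
  have hQ : (2 : ℤ) ≤ q := by exact_mod_cast hq
  have hW : (q : ℤ) ^ 2 + q + 1 ≤ (w : ℤ) := by exact_mod_cast hw3
  exact arithw4_int (q : ℤ) (w : ℤ) hQ hW hZ

end Cfsg.Agent.Lib.Helper18.SLM
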