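import Mathlib
import Cfsg.Agent.Lib.Helper81.AQDefs

set_option autoImplicit false

namespace Cfsg.Agent.Lib.Helper81.AQ

variable {G : Type*} [Group G]

-- piece SYL
theorem exists_sylow_in [Finite G] (L' : Subgroup G) (p : ℕ) [Fact p.Prime] :
    ∃ Z : Subgroup G, Z ≤ L' ∧ Nat.card Z = p ^ (Nat.card L').factorization p := by
  obtain ⟨P⟩ : Nonempty (Sylow p L') := Sylow.nonempty
  refine ⟨(P : Subgroup L').map L'.subtype, Subgroup.map_subtype_le _, ?_⟩
  rw [Subgroup.card_map_of_injective L'.subtype_injective]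
  exact Sylow.card_eq_multiplicity P

end Cfsg.Agent.Lib.Helper81.AQ
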