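import Cfsg.Agent.Lib.Helper15.BG12Defs3

/-!
# B&G 12.6 (row S1418) from 12.4 + 12.5: piece K1 of helper15's Section 12 block (helper28)
-/

set_option autoImplicit false

open Cfsg Cfsg.Agent.Lib.Helper32 Cfsg.Agent.Lib.Helper32.BG10 Cfsg.Agent.Lib.Helper3.BG12 Cfsg.Agent.Lib.Helper15.BG12

namespace Cfsg.Agent.Lib.Helper28.BG12x

universe u

variable {G : Type u} [Group G] [Finite G]

/-- in a finite group, one-sided conjugation invariance gives membership of the normalizer -/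
theorem k1_mem_normalizer_of_conj {A : Subgroup G} {g : G} (h : ∀ a ∈ A, g * a * g⁻¹ ∈ A) :
    g ∈ Subgroup.normalizer (A : Set G) := by
  rw [← cj_eq_self_iff]
  have hle : cj g A ≤ A := by
    intro x hx
    rw [mem_cj] at hx
    have h2 := h _ hx
    have e : g * (g⁻¹ * x * g) * g⁻¹ = x := by group
    rwa [e] at h2
  exact Subgroup.eq_of_le_of_card_ge hle (by rw [card_cj])

/-- B&G 12.6 -/
theorem h18_of (hG : IsMinSimpleOddOrder G) (h16 : H16 G) (h17 : H17 G) : H18 G := by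
  intro M hM E hE p _ hp A hA
  obtain ⟨hAE, hAel, hAcard⟩ := hA
  obtain ⟨hEM, hMsM, hEMs, hprod⟩ := hE
  have hAM : A ≤ M := hAE.trans hEM
  obtain ⟨-, hb, hc, hd, he, -⟩ := h17 M hM p hp A ⟨hAM, hAel, hAcard⟩
  have hCA : Subgroup.centralizer (A : Set G) ≤ M := (h16 M hM p A ⟨hAM, hAel, hAcard⟩).1
  have hMsN : M ≤ Subgroup.normalizer ((sigmaCore M : Subgroup G) : Set G) :=
    le_normalizer_map_subtype M (piCore (sigma M) ↥M)
  have hAp : IsPGroup p A := IsPGroup.of_card hAcard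
  -- (1) `E` normalizes `A`
  have h1 : ∀ e ∈ E, ∀ a ∈ A, e * a * e⁻¹ ∈ A := by
    intro e he' a ha
    have hx : e * a * e⁻¹ ∈ A ⊔ sigmaCore M := by
      have h0 := (Subgroup.mem_normalizer_iff.mp (hc (hEM he')) a).mp (Subgroup.mem_sup_right ha)
      rwa [sup_comm] at h0
    obtain ⟨a', ha', s, hs, hxs⟩ :=
      mem_sup_of_le_normalizer (H := A) (K := sigmaCore M) (hAM.trans hMsN) hx
    have hsE : s ∈ E := by
      have e1 : s = a'⁻¹ * (e * a * e⁻¹) := by rw [hxs]; group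
      rw [e1]
      exact E.mul_mem (E.inv_mem (hAE ha')) (E.mul_mem (E.mul_mem he' (hAE ha)) (E.inv_mem he'))
    have hs1 : s = 1 := by
      have h0 : s ∈ E ⊓ sigmaCore M := ⟨hsE, hs⟩
      rw [hEMs] at h0
      exact Subgroup.mem_bot.mp h0
    rw [hxs, hs1, mul_one]; exact ha'
  have hEN : E ≤ Subgroup.normalizer (A : Set G) :=
    fun e he' => k1_mem_normalizer_of_conj (h1 e he')
  -- Sylow `p`-subgroups of `M` over `A`
  have hsyl : ∀ X : Subgroup G, IsPGroup p X → X ≤ M → A ≤ X →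
      ∃ Q : Subgroup G, X ≤ Q ∧ (∀ x ∈ Q, x ^ p = 1 ↔ x ∈ A) ∧
        ¬ Subgroup.normalizer (Q : Set G) ≤ M := by
    intro X hXp hXM hAX
    obtain ⟨Q, hQ, hXQ⟩ := exists_sylSet_ge hXp hXM
    obtain ⟨P, rfl⟩ := exists_sylow_of_mem_sylSet hQ
    have h0 := (hb P).2 (hAX.trans hXQ)
    exact ⟨_, hXQ, h0.1, h0.2⟩
  -- (2) subgroups of order `p` of `E` lie in `A`
  have h2 : ∀ X : Subgroup G, X ≤ E → Nat.card X = p → X ≤ A := by
    intro X hXE hXc
    have hXp : IsPGroup p X := IsPGroup.of_card (n := 1) (by rw [hXc, pow_one])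
    have hXA : IsPGroup p (X ⊔ A : Subgroup G) :=
      hXp.to_sup_of_normal_right' hAp (hXE.trans hEN)
    obtain ⟨Q, hQ, hQA, -⟩ := hsyl (X ⊔ A) hXA (sup_le (hXE.trans hEM) hAM) le_sup_right
    intro x hx
    refine (hQA x (hQ (Subgroup.mem_sup_left hx))).mp ?_
    have h0 : (⟨x, hx⟩ : X) ^ Nat.card X = 1 := pow_card_eq_one'
    rw [hXc] at h0
    exact congrArg Subtype.val h0
  -- (3)
  have h3a : Subgroup.centralizer (A : Set G) ≤ M ⊓ Subgroup.normalizer (A : Set G) :=
    le_inf hCA (Subgroup.centralizer_le_normalizer _)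
  have h3b : M ⊓ Subgroup.normalizer (A : Set G) = E := by
    apply le_antisymm
    · rintro m ⟨hmM, hmN⟩
      obtain ⟨e, he', s, hs, rfl⟩ := hprod m hmM
      have hsN : s ∈ Subgroup.normalizer (A : Set G) := by
        have e1 : s = e⁻¹ * (e * s) := by group
        rw [e1]
        exact Subgroup.mul_mem _ (Subgroup.inv_mem _ (hEN he')) hmN
      have hsC : s ∈ Subgroup.centralizer (A : Set G) := by
        rw [Subgroup.mem_centralizer_iff]
        intro a ha
        have hc1 : s * a * s⁻¹ * a⁻¹ ∈ A :=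
          A.mul_mem ((Subgroup.mem_normalizer_iff.mp hsN a).mp ha) (A.inv_mem ha)
        have hc2 : s * a * s⁻¹ * a⁻¹ ∈ sigmaCore M := by
          have e1 : s * a * s⁻¹ * a⁻¹ = s * (a * s⁻¹ * a⁻¹) := by group
          rw [e1]
          exact Subgroup.mul_mem _ hs
            ((Subgroup.mem_normalizer_iff.mp (hMsN (hAM ha)) s⁻¹).mp (Subgroup.inv_mem _ hs))
        have h0 : s * a * s⁻¹ * a⁻¹ ∈ E ⊓ sigmaCore M := ⟨hAE hc1, hc2⟩
        rw [hEMs, Subgroup.mem_bot] at h0
        calc a * s = (s * a * s⁻¹ * a⁻¹)⁻¹ * (s * a) := by group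
          _ = s * a := by rw [h0, inv_one, one_mul]
      have hs1 : s = 1 := by
        have h0 : s ∈ sigmaCore M ⊓ Subgroup.centralizer (A : Set G) := ⟨hs, hsC⟩
        rw [hd] at h0
        exact Subgroup.mem_bot.mp h0
      rw [hs1, mul_one]; exact he'
    · exact le_inf hEM hEN
  have h3c : ¬ Subgroup.normalizer (A : Set G) ≤ M := by
    intro hNM
    obtain ⟨Q, hAQ, hQA, hQN⟩ := hsyl A hAp hAM le_rfl
    apply hQN
    refine le_trans ?_ hNM
    intro g hg
    apply k1_mem_normalizer_of_conj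
    intro a ha
    have h1' : g * a * g⁻¹ ∈ Q := (Subgroup.mem_normalizer_iff.mp hg a).mp (hAQ ha)
    refine (hQA _ h1').mp ?_
    rw [conj_pow, hAel.2 a ha, mul_one, mul_inv_cancel]
  -- (4)
  have h4 : ∀ X : Subgroup G, X ≤ A → Nat.card X = p →
      sigmaCore M ⊓ Subgroup.centralizer (X : Set G) ≠ ⊥ →
      (Subgroup.centralizer (X : Set G) ≤ M ∧ ∀ L : Subgroup G, IsCoatom L →
        Subgroup.centralizer (X : Set G) ≤ L → L = M) := by
    intro X hXA hXc hne
    have hACX : A ≤ Subgroup.centralizer (X : Set G) := by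
      intro a ha
      rw [Subgroup.mem_centralizer_iff]
      intro x hx
      exact congrArg Subtype.val (hAel.1.is_comm.comm ⟨x, hXA hx⟩ ⟨a, ha⟩)
    have huniq : ∀ L : Subgroup G, IsCoatom L → Subgroup.centralizer (X : Set G) ≤ L → L = M := by
      intro L hL hXL
      by_contra hLM
      have h0 := he L hL hLM (hACX.trans hXL)
      apply hne
      rw [eq_bot_iff, ← h0]
      exact inf_le_inf_left _ hXL
    have hXne : Subgroup.centralizer (X : Set G) ≠ ⊤ := by
      have hp1 : 1 < Nat.card X := by rw [hXc]; exact (Fact.out : p.Prime).one_lt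
      have : Nontrivial X := (Finite.one_lt_card_iff_nontrivial).mp hp1
      obtain ⟨x, hx⟩ := exists_ne (1 : X)
      have hx1 : (x : G) ≠ 1 := fun h => hx (Subtype.ext h)
      have h0 := minSimple_centralizer_singleton_ne_top hG hx1
      intro htop
      apply h0
      rw [eq_top_iff, ← htop]
      exact Subgroup.centralizer_le (Set.singleton_subset_iff.mpr x.2)
    obtain ⟨L, hL, hXL⟩ := exists_coatom_ge hXne
    have hLM := huniq L hL hXL
    exact ⟨hLM ▸ hXL, huniq⟩
  exact ⟨⟨hEN, h2⟩, ⟨h3a, h3b, h3c⟩, h4⟩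

end Cfsg.Agent.Lib.Helper28.BG12x
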