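import Mathlib

/-! Project EP (helper7) = S5746, piece RESTR (helper28). -/

set_option autoImplicit false

namespace Cfsg.Agent.Lib.Helper7.EP

/-- RESTR: the action on an invariant subset, relabelled. -/
theorem EPRESTR {H : Type*} [Group H] {n m : ℕ} (ρ : H →* Equiv.Perm (Fin n)) (e : Fin m → Fin n)
    (e' : Fin n → Fin m) (he : ∀ i, e' (e i) = i)
    (hinv : ∀ h : H, ∀ i : Fin m, e (e' (ρ h (e i))) = ρ h (e i)) :
    ∃ r : H →* Equiv.Perm (Fin m), ∀ h i, r h i = e' (ρ h (e i)) := by
  have hmul : ∀ (h k : H) (i : Fin m),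
      e' (ρ (h * k) (e i)) = e' (ρ h (e (e' (ρ k (e i))))) := by
    intro h k i
    rw [hinv k i, map_mul, Equiv.Perm.mul_apply]
  have hone : ∀ i : Fin m, e' (ρ 1 (e i)) = i := by
    intro i
    rw [map_one, Equiv.Perm.one_apply, he]
  let f : H → Equiv.Perm (Fin m) := fun h =>
    { toFun := fun i => e' (ρ h (e i))
      invFun := fun i => e' (ρ h⁻¹ (e i))
      left_inv := by
        intro i
        show e' (ρ h⁻¹ (e (e' (ρ h (e i))))) = i
        rw [← hmul, inv_mul_cancel, hone]
      right_inv := by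
        intro i
        show e' (ρ h (e (e' (ρ h⁻¹ (e i))))) = i
        rw [← hmul, mul_inv_cancel, hone] }
  refine ⟨{ toFun := f, map_one' := ?_, map_mul' := ?_ }, fun h i => rfl⟩
  · apply Equiv.ext
    intro i
    exact hone i
  · intro h k
    apply Equiv.ext
    intro i
    exact hmul h k i

end Cfsg.Agent.Lib.Helper7.EP
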