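import Mathlib
import Cfsg.Agent.Lib.Helper4.FCDefs
import Cfsg.Agent.S4034

/-! Project FC (S4146, helper4), piece A2K1 (helper28). -/

namespace Cfsg.Agent.Lib.Helper4.FC

universe u

/-- the arithmetic core: `ρ` is the `q'`-part of `c` -/
theorem a2k1_helper28_arith (ρ a c q e n' j : ℕ) (hq : q.Prime) (h1 : a * c = ρ * q ^ e)
    (h2 : ρ ∣ c) (hc0 : c ≠ 0) (hρq : ρ.Coprime q) (hc : c = n' * q ^ j)
    (hn'q : n'.Coprime q) : ρ = n' := by
  obtain ⟨t, ht⟩ := h2
  have hρ0 : 0 < ρ := by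
    rcases Nat.eq_zero_or_pos ρ with h | h
    · rw [h, zero_mul] at ht
      exact absurd ht hc0
    · exact h
  have h3 : a * t = q ^ e := by
    have h : ρ * (a * t) = ρ * q ^ e := by
      rw [← h1, ht]
      ring
    exact Nat.eq_of_mul_eq_mul_left hρ0 h
  have h4 : t ∣ q ^ e := ⟨a, by rw [← h3, mul_comm]⟩
  obtain ⟨f, -, hf⟩ := (Nat.dvd_prime_pow hq).1 h4
  have h5 : ρ * q ^ f = n' * q ^ j := by rw [← hf, ← ht, hc]
  have h6 : ρ ∣ n' := (Nat.Coprime.pow_right j hρq).dvd_of_dvd_mul_right ⟨q ^ f, h5.symm⟩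
  have h7 : n' ∣ ρ := (Nat.Coprime.pow_right f hn'q).dvd_of_dvd_mul_right ⟨q ^ j, h5⟩
  exact Nat.dvd_antisymm h6 h7

theorem fc_a2k1 : L3Stmt.{u} → W1Stmt.{u} → A2K1Stmt.{u} := by
  intro hL3 hW1 G _ _ n m q K Q u hctx huK
  obtain ⟨hFour, hq, ⟨i, hmi⟩, hKn, hKq, ⟨e, hKe⟩, -, ⟨b, hbQ, hbm⟩⟩ := hctx
  obtain ⟨hn1, hm1, hnm, hcls, -, -, -⟩ := hFour
  haveI : Fact q.Prime := ⟨hq⟩
  haveI := hKn
  have hi : i ≠ 0 := by
    rintro rfl
    rw [pow_zero] at hmi
    omega
  have hnm' : n.Coprime (q ^ i) := by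
    rw [← hmi]
    exact hnm
  have hnq : n.Coprime q := Nat.Coprime.coprime_dvd_right (dvd_pow_self q hi) hnm'
  obtain ⟨k, hk⟩ : ∃ k, orderOf b = q ^ k := by
    have hQ := Q.isPGroup'
    obtain ⟨k, hk⟩ := (IsPGroup.iff_orderOf.1 hQ) ⟨b, hbQ⟩
    exact ⟨k, by rw [← hk, Subgroup.orderOf_mk]⟩
  have houK : orderOf u ∣ Nat.card K := by
    have h := orderOf_dvd_natCard (⟨u, huK⟩ : K)
    rwa [Subgroup.orderOf_mk] at h
  have hou : (orderOf u).Coprime (orderOf b) := by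
    rw [hk]
    exact Nat.Coprime.pow_right k (Nat.Coprime.coprime_dvd_left houK hKq)
  have hKb : K ≤ Cen b := hW1 G K b hKn (by
    rw [hbm, hmi]
    exact Nat.Coprime.pow_right i hKq)
  have hcomm : Commute b u := by
    have h := hKb huK
    rw [Subgroup.mem_centralizer_iff] at h
    exact h b (Set.mem_singleton b)
  have hL := hL3 G b u hcomm hou.symm
  have hinf : Cen (b * u) ⊓ K = Cen u ⊓ K := by
    rw [hL]
    apply le_antisymm
    · exact inf_le_inf_right _ inf_le_right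
    · exact le_inf (le_inf (inf_le_right.trans hKb) inf_le_left) inf_le_right
  have hρ : (Cen u).relIndex K = (Cen (b * u)).relIndex K := by
    rw [← Subgroup.inf_relIndex_right (Cen u) K, ← hinf, Subgroup.inf_relIndex_right]
  rw [hρ]
  have h1 : (Cen (b * u) ⊓ K).relIndex (Cen (b * u)) * (Cen (b * u)).index
      = (Cen (b * u) ⊓ K).index := Subgroup.relIndex_mul_index inf_le_left
  have h2 : (Cen (b * u) ⊓ K).relIndex K * K.index = (Cen (b * u) ⊓ K).index :=
    Subgroup.relIndex_mul_index inf_le_right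
  rw [Subgroup.inf_relIndex_right, hKe] at h2
  have h3 : (Cen (b * u) ⊓ K).relIndex (Cen (b * u)) * (Cen (b * u)).index
      = (Cen (b * u)).relIndex K * q ^ e := by rw [h1, h2]
  have hdvd : (Cen (b * u)).relIndex K ∣ (Cen (b * u)).index :=
    Cfsg.Agent.S4034.relIndex_dvd_index_normal _ K
  have hc0 : (Cen (b * u)).index ≠ 0 := Subgroup.index_ne_zero_of_finite
  have hρq : ((Cen (b * u)).relIndex K).Coprime q :=
    Nat.Coprime.coprime_dvd_left (Subgroup.relIndex_dvd_card _ K) hKq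
  rcases hcls (b * u) with h | h | h | h
  · left
    exact a2k1_helper28_arith _ _ _ q e 1 0 hq h3 hdvd hc0 hρq
      (by rw [show (Cen (b * u)).index = 1 from h]; simp) (Nat.coprime_one_left q)
  · right
    exact a2k1_helper28_arith _ _ _ q e n 0 hq h3 hdvd hc0 hρq
      (by rw [show (Cen (b * u)).index = n from h]; simp) hnq
  · left
    exact a2k1_helper28_arith _ _ _ q e 1 i hq h3 hdvd hc0 hρq
      (by rw [show (Cen (b * u)).index = m from h, hmi, one_mul]) (Nat.coprime_one_left q)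
  · right
    exact a2k1_helper28_arith _ _ _ q e n i hq h3 hdvd hc0 hρq
      (by rw [show (Cen (b * u)).index = n * m from h, hmi]) hnq

end Cfsg.Agent.Lib.Helper4.FC
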