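import Mathlib
import Cfsg.Agent.Lib.Helper13.FumDefs

/-!
# S4330, piece G2M (helper28): the group form of the core claim

`core_group`: translation of the module statement `CoreUpTo` to a minimal normal abelian
`p'`-subgroup `N` of `G` acted on by conjugation.
-/

set_option autoImplicit false

namespace Cfsg.Agent.Lib.Helper28.FumG2M

open Cfsg.Agent.Lib.Helper13.Fum
open scoped Pointwise

universe u

/-- A multiplicative automorphism of a commutative group `A`, as a unit of the endomorphism
ring of `Additive A`. -/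
def toAAut (A : Type*) [CommGroup A] : MulAut A →* AAut (Additive A) where
  toFun e :=
    { val := MonoidHom.toAdditive (e : A →* A)
      inv := MonoidHom.toAdditive ((e.symm : A ≃* A) : A →* A)
      val_inv := by
        ext v
        change Additive.ofMul (e (e.symm (Additive.toMul v))) = v
        simp
      inv_val := by
        ext v
        change Additive.ofMul (e.symm (e (Additive.toMul v))) = v
        simp }
  map_one' := by
    apply Units.ext
    ext v
    rfl
  map_mul' := by
    intro x y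
    apply Units.ext
    ext v
    rfl

theorem toAAut_smul (A : Type*) [CommGroup A] (e : MulAut A) (v : Additive A) :
    toAAut A e • v = Additive.ofMul (e (Additive.toMul v)) := rfl

theorem toAAut_injective (A : Type*) [CommGroup A] : Function.Injective (toAAut A) := by
  intro e f h
  ext x
  have h1 := congrArg (fun t : AAut (Additive A) => t • Additive.ofMul x) h
  simp only [toAAut_smul] at h1
  simpa using h1

/-- The abstract form: a group `Γ` acting irreducibly on a finite commutative `p'`-group `A`. -/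
theorem core_action {Γ : Type*} [Group Γ] {A : Type u} [CommGroup A] [Finite A] [Nontrivial A]
    (p : ℕ) [Fact p.Prime] (hcore : ∀ n, CoreUpTo.{u} p n) (ψ : Γ →* MulAut A)
    (hAp : (Nat.card A).Coprime p)
    (hirr : ∀ L : Subgroup A, (∀ g x, x ∈ L → ψ g x ∈ L) → L = ⊥ ∨ L = ⊤)
    (M : Subgroup Γ) [M.Normal] (hM : ∀ m ∈ M, ∃ j : ℕ, ψ (m ^ (p ^ j)) = 1)
    (a : Γ) (ha : a ∈ M) (hna : ψ a ≠ 1) :
    ∃ v : A, ∀ g : Γ, ψ (g * a * g⁻¹) v ≠ v := by
  set φ : Γ →* AAut (Additive A) := (toAAut A).comp ψ with hφ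
  have hφs : ∀ (g : Γ) (v : Additive A), φ g • v = Additive.ofMul (ψ g (Additive.toMul v)) :=
    fun g v => rfl
  have hK : ∀ k ∈ φ.range, ∀ x ∈ M.map φ, k * x * k⁻¹ ∈ M.map φ := by
    rintro k ⟨g, rfl⟩ x ⟨m, hm, rfl⟩
    refine ⟨g * m * g⁻¹, ‹M.Normal›.conj_mem m hm g, ?_⟩
    simp
  have hP : IsPGroup p (M.map φ) := by
    rintro ⟨x, m, hm, rfl⟩
    obtain ⟨j, hj⟩ := hM m hm
    refine ⟨j, Subtype.ext ?_⟩
    change φ m ^ p ^ j = 1
    rw [← map_pow, hφ, MonoidHom.comp_apply, hj, map_one]
  have hI : Irr φ.range := by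
    intro W hW
    rcases hirr (AddSubgroup.toSubgroup' W) (fun g x hx => by
      have h1 := hW (φ g) ⟨g, rfl⟩ (Additive.ofMul x) hx
      rw [hφs] at h1
      exact h1) with h | h
    · left
      rw [eq_bot_iff]
      intro w hw
      have h2 : Additive.toMul w ∈ AddSubgroup.toSubgroup' W := hw
      rw [h] at h2
      have h3 : Additive.toMul w = 1 := h2
      change w = 0
      exact Additive.toMul.injective h3
    · right
      rw [eq_top_iff]
      intro w _
      have h2 : Additive.toMul w ∈ AddSubgroup.toSubgroup' W := by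
        rw [h]
        exact Subgroup.mem_top _
      exact h2
  have haP : φ a ∈ M.map φ := ⟨a, ha, rfl⟩
  have ha1 : φ a ≠ 1 := by
    intro h
    apply hna
    apply toAAut_injective A
    rw [map_one]
    exact h
  have hle : M.map φ ≤ φ.range := by
    rintro x ⟨m, _, rfl⟩
    exact ⟨m, rfl⟩
  have hcard : (Nat.card (Additive A)).Coprime p := hAp
  obtain ⟨v, hv⟩ := hcore (Nat.card (Additive A) + 1) (Additive A) (Nat.lt_succ_self _) hcard
    φ.range (M.map φ) hle hK hP hI (φ a) haP ha1
  refine ⟨Additive.toMul v, fun g hg => ?_⟩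
  apply hv (φ g) ⟨g, rfl⟩
  have h1 : φ g * φ a * (φ g)⁻¹ = φ (g * a * g⁻¹) := by simp
  rw [h1, hφs, hg]
  rfl

/-- G2M: the group form of the core claim. -/
theorem core_group {G : Type u} [Group G] [Finite G] (p : ℕ) [Fact p.Prime]
    (hcore : ∀ n, CoreUpTo.{u} p n)
    (N : Subgroup G) [N.Normal] (hN : N ≠ ⊥)
    (hNab : ∀ x ∈ N, ∀ y ∈ N, x * y = y * x) (hNp : (Nat.card N).Coprime p)
    (hmin : ∀ L : Subgroup G, L.Normal → L ≤ N → L = ⊥ ∨ L = N)
    (M : Subgroup G) [M.Normal]
    (hM : ∀ m ∈ M, ∃ j : ℕ, ∀ n ∈ N, m ^ (p ^ j) * n = n * m ^ (p ^ j))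
    (a : G) (ha : a ∈ M) (hna : ∃ n ∈ N, a * n ≠ n * a) :
    ∃ v ∈ N, ∀ g : G, (g * a * g⁻¹) * v ≠ v * (g * a * g⁻¹) := by
  letI : CommGroup N :=
    { (inferInstance : Group N) with
      mul_comm := fun x y => Subtype.ext (hNab x x.2 y y.2) }
  haveI : Nontrivial N := (Subgroup.nontrivial_iff_ne_bot N).mpr hN
  have hψ : ∀ (g : G) (x : N), ((MulAut.conjNormal g x : N) : G) = g * x * g⁻¹ :=
    fun g x => MulAut.conjNormal_apply g x
  have hirr : ∀ L : Subgroup N, (∀ (g : G) (x : N), x ∈ L → MulAut.conjNormal g x ∈ L) →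
      L = ⊥ ∨ L = ⊤ := by
    intro L hL
    have hnorm : (L.map N.subtype).Normal := by
      constructor
      rintro x ⟨y, hy, rfl⟩ g
      exact ⟨MulAut.conjNormal g y, hL g y hy, hψ g y⟩
    have hle : L.map N.subtype ≤ N := by
      rintro x ⟨y, _, rfl⟩
      exact y.2
    rcases hmin _ hnorm hle with h | h
    · left
      rw [eq_bot_iff]
      intro y hy
      have h1 : (y : G) ∈ L.map N.subtype := ⟨y, hy, rfl⟩
      rw [h] at h1
      exact Subtype.ext h1
    · right
      rw [eq_top_iff]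
      intro y _
      have h1 : (y : G) ∈ L.map N.subtype := by
        rw [h]
        exact y.2
      obtain ⟨z, hz, hzy⟩ := h1
      have : z = y := Subtype.ext hzy
      rwa [this] at hz
  have hM' : ∀ m ∈ M, ∃ j : ℕ, (MulAut.conjNormal (m ^ (p ^ j)) : MulAut N) = 1 := by
    intro m hm
    obtain ⟨j, hj⟩ := hM m hm
    refine ⟨j, ?_⟩
    ext x
    rw [hψ, hj x x.2, mul_inv_cancel_right]
    rfl
  have hna' : (MulAut.conjNormal a : MulAut N) ≠ 1 := by
    intro h
    obtain ⟨n, hn, hne⟩ := hna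
    apply hne
    have h1 := hψ a ⟨n, hn⟩
    rw [h] at h1
    have h2 : n = a * n * a⁻¹ := h1
    calc a * n = a * n * a⁻¹ * a := by group
      _ = n * a := by rw [← h2]
  obtain ⟨v, hv⟩ := core_action p hcore (MulAut.conjNormal : G →* MulAut N) hNp hirr M hM' a ha
    hna'
  refine ⟨v, v.2, fun g hg => ?_⟩
  apply hv g
  apply Subtype.ext
  rw [hψ, hg, mul_inv_cancel_right]

end Cfsg.Agent.Lib.Helper28.FumG2M
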