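import Cfsg.Agent.Lib.Helper47.GLSylDefs

/-!
# S2249, piece MAXPROD (helper28)

`MaxNE_of_mulEquiv`, `MaxNE_prod`: the bound on normal elementary abelian `2`-subgroups passes
to isomorphic groups and to direct products.
-/

set_option autoImplicit false

namespace Cfsg.Agent.Lib.Helper28.GLSylMAXPROD

open Cfsg.Agent.Lib.Helper47

theorem MaxNE_of_mulEquiv {A B : Type*} [Group A] [Group B] (e : A ≃* B) {k : ℕ}
    (h : MaxNE A k) : MaxNE B k := by
  intro E hn hc h2
  have h1 : Nat.card (E.map e.symm.toMonoidHom) = Nat.card E :=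
    Subgroup.card_map_of_injective e.symm.injective
  rw [← h1]
  apply h
  · exact hn.map e.symm.toMonoidHom e.symm.surjective
  · rintro x ⟨x', hx', rfl⟩ y ⟨y', hy', rfl⟩
    change e.symm x' * e.symm y' = e.symm y' * e.symm x'
    rw [← map_mul, ← map_mul, hc x' hx' y' hy']
  · rintro x ⟨x', hx', rfl⟩
    change e.symm x' ^ 2 = 1
    rw [← map_pow, h2 x' hx', map_one]

theorem MaxNE_prod {A B : Type*} [Group A] [Group B] [Finite A] [Finite B] {a b : ℕ}
    (hA : MaxNE A a) (hB : MaxNE B b) : MaxNE (A × B) (a + b) := by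
  intro E hn hc h2
  have h1 : Nat.card (E.map (MonoidHom.fst A B)) ≤ 2 ^ a := by
    apply hA
    · exact hn.map (MonoidHom.fst A B) (fun x => ⟨(x, 1), rfl⟩)
    · rintro x ⟨x', hx', rfl⟩ y ⟨y', hy', rfl⟩
      rw [← map_mul, ← map_mul, hc x' hx' y' hy']
    · rintro x ⟨x', hx', rfl⟩
      rw [← map_pow, h2 x' hx', map_one]
  have h3 : Nat.card (E.map (MonoidHom.snd A B)) ≤ 2 ^ b := by
    apply hB
    · exact hn.map (MonoidHom.snd A B) (fun x => ⟨(1, x), rfl⟩)
    · rintro x ⟨x', hx', rfl⟩ y ⟨y', hy', rfl⟩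
      rw [← map_mul, ← map_mul, hc x' hx' y' hy']
    · rintro x ⟨x', hx', rfl⟩
      rw [← map_pow, h2 x' hx', map_one]
  have h4 : E ≤ (E.map (MonoidHom.fst A B)).prod (E.map (MonoidHom.snd A B)) := by
    intro x hx
    exact ⟨⟨x, hx, rfl⟩, ⟨x, hx, rfl⟩⟩
  have h5 : Nat.card ((E.map (MonoidHom.fst A B)).prod (E.map (MonoidHom.snd A B))) =
      Nat.card (E.map (MonoidHom.fst A B)) * Nat.card (E.map (MonoidHom.snd A B)) := by
    rw [Nat.card_congr (Subgroup.prodEquiv _ _).toEquiv, Nat.card_prod]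
  calc Nat.card E ≤ Nat.card ((E.map (MonoidHom.fst A B)).prod (E.map (MonoidHom.snd A B))) :=
        Subgroup.card_le_of_le h4
    _ = Nat.card (E.map (MonoidHom.fst A B)) * Nat.card (E.map (MonoidHom.snd A B)) := h5
    _ ≤ 2 ^ a * 2 ^ b := Nat.mul_le_mul h1 h3
    _ = 2 ^ (a + b) := (pow_add 2 a b).symm

end Cfsg.Agent.Lib.Helper28.GLSylMAXPROD
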