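import Mathlib
import Cfsg.Agent.Lib.Helper28.L3Base
import Cfsg.Agent.Lib.Helper54.OrthDih
import Cfsg.Agent.Lib.Helper7.Quat

set_option autoImplicit false
set_option linter.unusedSectionVars false
set_option linter.style.haveILetI false
set_option linter.unusedSimpArgs false
set_option linter.unusedVariables false

/-! Groups of order 64 with a fixed-point-free automorphism of order three (helper28):
an involutory automorphism inverting it. -/

namespace Cfsg.Agent.Lib.Helper28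

/-- An involutory endomorphism `χ` inverting `ψ`, with fixed-point subgroup `C`. -/
structure Chi (T : Type*) [Group T] (ψ χ : T →* T) (C : Subgroup T) : Prop where
  invol : ∀ t, χ (χ t) = t
  rel : ∀ t, χ (ψ t) = ψ (ψ (χ t))
  fix : ∀ y, y ∈ C ↔ χ y = y

namespace L3

open scoped commutatorElement
open Cfsg.Agent.Lib.Helper28.R2

universe u

/-- A group of order eight generated like the quaternion group is the quaternion group. -/
theorem q8_of_card {P : Type*} [Group P] (h8 : Nat.card P = 8) (A X : P) (hA2 : A * A ≠ 1)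
    (hA4 : (A * A) * (A * A) = 1) (hX : X * X = A * A) (hAX : A * X = X * A⁻¹) :
    Nonempty (P ≃* QuaternionGroup 2) := by
  haveI : Finite P := Nat.finite_of_card_ne_zero (by omega)
  haveI : Fact (Nat.Prime 2) := ⟨Nat.prime_two⟩
  have hord : orderOf A = 2 * 2 := by
    have := orderOf_eq_prime_pow (x := A) (p := 2) (n := 1)
      (by rw [pow_one, pow_two]; exact hA2)
      (by
        have e : A ^ 2 ^ (1 + 1) = (A * A) * (A * A) := by
          rw [show (2 : ℕ) ^ (1 + 1) = 2 + 2 from rfl, pow_add, pow_two]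
        rw [e]; exact hA4)
    exact this.trans (by norm_num)
  have hX' : X * X = A ^ 2 := by rw [pow_two]; exact hX
  have hinj := Cfsg.Agent.Lib.Helper7.quatHom_injective (n := 2) le_rfl A X hord hX' hAX
  have hbij := hinj.bijective_of_nat_card_le
    (by rw [h8, Nat.card_eq_fintype_card, QuaternionGroup.card])
  exact ⟨(MulEquiv.ofBijective _ hbij).symm⟩

/-- The elements moved by `χ` only by a central element. -/
def Wsub {T : Type u} [Group T] (χ : T →* T) : Subgroup T where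
  carrier := {w | w⁻¹ * χ w ∈ Subgroup.center T}
  mul_mem' := by
    intro a b ha hb
    have ha' : a⁻¹ * χ a ∈ Subgroup.center T := ha
    have hb' : b⁻¹ * χ b ∈ Subgroup.center T := hb
    show (a * b)⁻¹ * χ (a * b) ∈ Subgroup.center T
    have e : (a * b)⁻¹ * χ (a * b) = (a⁻¹ * χ a) * (b⁻¹ * χ b) := by
      rw [map_mul]
      have := Subgroup.mem_center_iff.mp ha' b⁻¹
      calc (a * b)⁻¹ * (χ a * χ b) = b⁻¹ * (a⁻¹ * χ a) * χ b := by group
        _ = (a⁻¹ * χ a) * b⁻¹ * χ b := by rw [this]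
        _ = _ := by group
    rw [e]
    exact Subgroup.mul_mem _ ha' hb'
  one_mem' := by
    show (1 : T)⁻¹ * χ 1 ∈ Subgroup.center T
    rw [map_one, inv_one, mul_one]
    exact Subgroup.one_mem _
  inv_mem' := by
    intro a ha
    have ha' : a⁻¹ * χ a ∈ Subgroup.center T := ha
    show (a⁻¹)⁻¹ * χ a⁻¹ ∈ Subgroup.center T
    have e : (a⁻¹)⁻¹ * χ a⁻¹ = (a⁻¹ * χ a)⁻¹ := by
      rw [map_inv]
      have := Subgroup.mem_center_iff.mp (Subgroup.inv_mem _ ha') a
      calc (a⁻¹)⁻¹ * (χ a)⁻¹ = a * (a⁻¹ * χ a)⁻¹ * a⁻¹ := by group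
        _ = (a⁻¹ * χ a)⁻¹ * a * a⁻¹ := by rw [this]
        _ = _ := by group
    rw [e]
    exact Subgroup.inv_mem _ ha'

section ChiSec

variable {T : Type u} [Group T] {ψ χ : T →* T} {C : Subgroup T}

theorem chi_center (hx : Chi T ψ χ C) {z : T} (hz : z ∈ Subgroup.center T) :
    χ z ∈ Subgroup.center T := by
  rw [Subgroup.mem_center_iff] at hz ⊢
  intro t
  have ht : t = χ (χ t) := (hx.invol t).symm
  rw [ht, ← map_mul, ← map_mul, hz]

theorem C_psi (h : F3 T ψ) (hx : Chi T ψ χ C) {y : T} (hy : y ∈ C) (hy' : ψ y ∈ C) : y = 1 := by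
  have h1 := (hx.fix _).mp hy'
  rw [hx.rel, (hx.fix y).mp hy] at h1
  exact h.fpf y (inj h h1)

theorem exists_fixed (h : F64 T ψ) (hx : Chi T ψ χ C) :
    ∃ v ∈ Subgroup.center T, v ≠ 1 ∧ χ v = v ∧
      ∀ e ∈ Subgroup.center T, χ e = e → e = 1 ∨ e = v := by
  obtain ⟨e', he', hne'⟩ := exists_E h
  obtain ⟨v, hv, hv1, hvfix⟩ : ∃ v ∈ Subgroup.center T, v ≠ 1 ∧ χ v = v := by
    by_cases hfix : χ e' = e'
    · exact ⟨e', he', hne', hfix⟩
    · refine ⟨e' * χ e', Subgroup.mul_mem _ he' (chi_center hx he'), ?_, ?_⟩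
      · intro h0
        apply hfix
        have : χ e' = e'⁻¹ := eq_inv_of_mul_eq_one_right h0
        rw [this, inv_E h he']
      · rw [map_mul, hx.invol]
        exact Ecomm h (chi_center hx he') e'
  refine ⟨v, hv, hv1, hvfix, ?_⟩
  have tab := etab h hv hv1
  have p1 : χ (ψ v) = ψ (ψ v) := by rw [hx.rel, hvfix]
  have p2 : χ (ψ (ψ v)) = ψ v := by rw [hx.rel, p1, h.base.cube]
  intro e he hfix
  rcases tab.all e he with h0 | h0 | h0 | h0
  · exact Or.inl h0
  · exact Or.inr h0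
  · exfalso
    rw [h0, p1] at hfix
    exact tab.n12 hfix.symm
  · exfalso
    rw [h0, p2] at hfix
    exact tab.n12 hfix

theorem prod_inj (h : F3 T ψ) (hx : Chi T ψ χ C) :
    Function.Injective (fun p : ↥C × ↥C => (p.1 : T) * ψ (p.2 : T)) := by
  rintro ⟨c₁, c₁'⟩ ⟨c₂, c₂'⟩ heq
  have heq' : (c₁ : T) * ψ (c₁' : T) = (c₂ : T) * ψ (c₂' : T) := heq
  have h1 : ψ ((c₂' : T) * (c₁' : T)⁻¹) = (c₂ : T)⁻¹ * (c₁ : T) := by
    rw [map_mul, map_inv]
    have : ψ (c₁' : T) = (c₁ : T)⁻¹ * ((c₂ : T) * ψ (c₂' : T)) := by rw [← heq']; group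
    rw [this]; group
  have h2 : (c₂' : T) * (c₁' : T)⁻¹ = 1 :=
    C_psi h hx (C.mul_mem c₂'.2 (C.inv_mem c₁'.2))
      (by rw [h1]; exact C.mul_mem (C.inv_mem c₂.2) c₁.2)
  have h3 : (c₂' : T) = (c₁' : T) := mul_inv_eq_one.mp h2
  have h4 : (c₁ : T) = (c₂ : T) := by
    rw [h3] at heq'
    exact mul_right_cancel heq'
  exact Prod.ext (Subtype.ext h4) (Subtype.ext h3.symm)

theorem card_C_le (h : F64 T ψ) (hx : Chi T ψ χ C) : Nat.card C ≤ 8 := by
  haveI := h.base.fin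
  have h1 := Nat.card_le_card_of_injective _ (prod_inj h.base hx)
  rw [Nat.card_prod, h.card] at h1
  nlinarith

theorem N_mem (h : F64 T ψ) (hx : Chi T ψ χ C) (y : T) {ε : T}
    (hε : ε ∈ Subgroup.center T) : y * χ y * ε ∈ Wsub χ := by
  show (y * χ y * ε)⁻¹ * χ (y * χ y * ε) ∈ Subgroup.center T
  have e : (y * χ y * ε)⁻¹ * χ (y * χ y * ε) = ε⁻¹ * ⁅(χ y)⁻¹, y⁻¹⁆ * χ ε := by
    rw [map_mul, map_mul, hx.invol, commutatorElement_def]
    group
  rw [e]
  exact Subgroup.mul_mem _ (Subgroup.mul_mem _ (Subgroup.inv_mem _ hε) (comm_mem h _ _))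
    (chi_center hx hε)

theorem lemA (h : F64 T ψ) (hx : Chi T ψ χ C) {y y' ε ε' : T} (hε : ε ∈ Subgroup.center T)
    (hε' : ε' ∈ Subgroup.center T) (h1 : y * χ y * ε = y' * χ y' * ε') :
    (y⁻¹ * y') * χ (y⁻¹ * y') ∈ Subgroup.center T := by
  have hε0 : ε = (y * χ y)⁻¹ * (y' * χ y' * ε') := by rw [← h1]; group
  have e : (y⁻¹ * y') * χ (y⁻¹ * y') = ⁅(χ y)⁻¹, y⁻¹ * y'⁆⁻¹ * ε * ε'⁻¹ := by
    rw [hε0, map_mul, map_inv, commutatorElement_def]
    group
  rw [e]
  exact Subgroup.mul_mem _ (Subgroup.mul_mem _ (Subgroup.inv_mem _ (comm_mem h _ _)) hε)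
    (Subgroup.inv_mem _ hε')

theorem lemB (h : F64 T ψ) {y δ ε ε' : T} (hδ : δ ∈ Subgroup.center T)
    (h1 : y * χ y * ε = (y * δ) * χ (y * δ) * ε') : ε = δ * χ δ * ε' := by
  have hc := Ecomm h hδ (χ y)
  have e : (y * δ) * χ (y * δ) * ε' = y * χ y * (δ * χ δ * ε') := by
    rw [map_mul]
    calc y * δ * (χ y * χ δ) * ε' = y * (δ * χ y) * χ δ * ε' := by group
      _ = y * (χ y * δ) * χ δ * ε' := by rw [hc]
      _ = _ := by group
  exact mul_left_cancel (h1.trans e)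

theorem card_W_ge (h : F64 T ψ) (hx : Chi T ψ χ C) : 16 ≤ Nat.card (Wsub χ) := by
  haveI := h.base.fin
  have hψE : ∀ e ∈ Subgroup.center T, ψ e ∈ Subgroup.center T :=
    fun _ he => psi_center h.base he
  let Ξ : T × ↥(Subgroup.center T) → ↥(Wsub χ) × ↥(Wsub χ) := fun p =>
    (⟨p.1 * χ p.1 * (p.2 : T), N_mem h hx p.1 p.2.2⟩,
     ⟨ψ p.1 * χ (ψ p.1) * ψ (p.2 : T), N_mem h hx (ψ p.1) (hψE _ p.2.2)⟩)
  have hΞ : Function.Injective Ξ := by
    rintro ⟨y, ε⟩ ⟨y', ε'⟩ heq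
    have h1 : y * χ y * (ε : T) = y' * χ y' * (ε' : T) :=
      congrArg (fun q => (q.1 : T)) heq
    have h2 : ψ y * χ (ψ y) * ψ (ε : T) = ψ y' * χ (ψ y') * ψ (ε' : T) :=
      congrArg (fun q => (q.2 : T)) heq
    obtain ⟨u, hu⟩ : ∃ u, u = y⁻¹ * y' := ⟨_, rfl⟩
    have hA := lemA h hx ε.2 ε'.2 h1
    have hB := lemA h hx (hψE _ ε.2) (hψE _ ε'.2) h2
    rw [← hu] at hA
    have hψu : (ψ y)⁻¹ * ψ y' = ψ u := by rw [hu, map_mul, map_inv]
    rw [hψu, hx.rel] at hB
    have hA' : ψ (ψ u) * ψ (ψ (χ u)) ∈ Subgroup.center T := by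
      have := hψE _ (hψE _ hA)
      rwa [map_mul, map_mul] at this
    have hg : ψ u * (ψ (ψ u))⁻¹ ∈ Subgroup.center T := by
      have := Subgroup.mul_mem _ hB (Subgroup.inv_mem _ hA')
      have e : ψ u * ψ (ψ (χ u)) * (ψ (ψ u) * ψ (ψ (χ u)))⁻¹ = ψ u * (ψ (ψ u))⁻¹ := by group
      rwa [e] at this
    have hg' : (ψ u)⁻¹ * ψ (ψ u) ∈ Subgroup.center T := by
      have h3 := Subgroup.inv_mem _ hg
      have hc := Subgroup.mem_center_iff.mp h3 (ψ u)⁻¹
      have e : (ψ u)⁻¹ * ψ (ψ u) = (ψ u)⁻¹ * (ψ u * (ψ (ψ u))⁻¹)⁻¹ * ψ u := by group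
      rw [e, hc]
      have e2 : (ψ u * (ψ (ψ u))⁻¹)⁻¹ * (ψ u)⁻¹ * ψ u = (ψ u * (ψ (ψ u))⁻¹)⁻¹ := by group
      rw [e2]
      exact h3
    have hψuE : ψ u ∈ Subgroup.center T := coset_fix h.base _ hψE hg'
    have huE : u ∈ Subgroup.center T := psi_mem_of h.base _ hψE hψuE
    have hy' : y' = y * u := by rw [hu]; group
    rw [hy'] at h1
    have e1 := lemB h huE h1
    have hy'' : ψ y' = ψ y * ψ u := by rw [hy', map_mul]
    rw [hy''] at h2
    have e2 := lemB h hψuE h2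
    rw [hx.rel] at e2
    have e3 : (ε : T) = u * ψ (χ u) * (ε' : T) := by
      apply inj h.base
      rw [e2, map_mul, map_mul]
    have e4 : χ u = ψ (χ u) := by
      have : u * χ u * (ε' : T) = u * ψ (χ u) * (ε' : T) := e1.symm.trans e3
      exact mul_left_cancel (mul_right_cancel this)
    have e5 : χ u = 1 := h.base.fpf _ e4.symm
    have e6 : u = 1 := by
      have := hx.invol u
      rw [e5, map_one] at this
      exact this.symm
    have hyy : y = y' := by rw [hy', e6, mul_one]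
    have hεε : (ε : T) = (ε' : T) := by rw [e1, e6, map_one, one_mul, one_mul]
    exact Prod.ext hyy (Subtype.ext hεε)
  have hc := Nat.card_le_card_of_injective Ξ hΞ
  rw [Nat.card_prod, Nat.card_prod, h.card, cardZ h] at hc
  nlinarith

theorem card_W_le (h : F64 T ψ) (hx : Chi T ψ χ C) : Nat.card (Wsub χ) ≤ 2 * Nat.card C := by
  classical
  haveI := h.base.fin
  haveI : Fintype T := Fintype.ofFinite T
  obtain ⟨v, hv, hv1, hvfix, hvall⟩ := exists_fixed h hx
  have hθ : ∀ w ∈ Wsub χ, w ∈ C ∨ w⁻¹ * χ w = v := by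
    intro w hw
    have hw' : w⁻¹ * χ w ∈ Subgroup.center T := hw
    have hfix : χ (w⁻¹ * χ w) = w⁻¹ * χ w := by
      rw [map_mul, map_inv, hx.invol]
      have e : (χ w)⁻¹ * w = (w⁻¹ * χ w)⁻¹ := by group
      rw [e, inv_E h hw']
    rcases hvall _ hw' hfix with h0 | h0
    · left
      rw [hx.fix]
      exact (inv_mul_eq_one.mp h0).symm
    · exact Or.inr h0
  have hW : (Finset.univ.filter (· ∈ Wsub χ)).card = Nat.card (Wsub χ) := by
    rw [Nat.card_eq_fintype_card, Fintype.card_subtype]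
  have hCc : (Finset.univ.filter (· ∈ C)).card = Nat.card C := by
    rw [Nat.card_eq_fintype_card, Fintype.card_subtype]
  by_cases hall : ∀ w ∈ Wsub χ, w ∈ C
  · have hsub : (Finset.univ.filter (· ∈ Wsub χ)) ⊆ (Finset.univ.filter (· ∈ C)) := by
      intro w hw
      simp only [Finset.mem_filter, Finset.mem_univ, true_and] at hw ⊢
      exact hall w hw
    have := Finset.card_le_card hsub
    rw [hW, hCc] at this
    omega
  · push Not at hall
    obtain ⟨w₀, hw₀, hw₀C⟩ := hall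
    have hθ₀ : w₀⁻¹ * χ w₀ = v := (hθ w₀ hw₀).resolve_left hw₀C
    have hsub : (Finset.univ.filter (· ∈ Wsub χ)) ⊆
        (Finset.univ.filter (· ∈ C)) ∪ (Finset.univ.filter (· ∈ C)).image (fun c => c * w₀) := by
      intro w hw
      simp only [Finset.mem_filter, Finset.mem_univ, true_and] at hw
      rw [Finset.mem_union]
      rcases hθ w hw with h0 | h0
      · left
        simp only [Finset.mem_filter, Finset.mem_univ, true_and]
        exact h0
      · right
        rw [Finset.mem_image]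
        refine ⟨w * w₀⁻¹, ?_, by group⟩
        simp only [Finset.mem_filter, Finset.mem_univ, true_and]
        rw [hx.fix, map_mul, map_inv]
        have e1 : χ w = w * v := by rw [← h0]; group
        have e2 : χ w₀ = w₀ * v := by rw [← hθ₀]; group
        rw [e1, e2]
        group
    have := (Finset.card_le_card hsub).trans (Finset.card_union_le _ _)
    have h2 := Finset.card_image_le (s := Finset.univ.filter (· ∈ C)) (f := fun c => c * w₀)
    rw [hW, hCc] at this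
    rw [hCc] at h2
    omega

theorem card_C (h : F64 T ψ) (hx : Chi T ψ χ C) : Nat.card C = 8 := by
  have h1 := card_C_le h hx
  have h2 := card_W_ge h hx
  have h3 := card_W_le h hx
  omega

theorem decomp (h : F64 T ψ) (hx : Chi T ψ χ C) (t : T) :
    ∃ c ∈ C, ∃ c' ∈ C, t = c * ψ c' := by
  haveI := h.base.fin
  have hbij := (prod_inj h.base hx).bijective_of_nat_card_le
    (by rw [Nat.card_prod, card_C h hx, h.card])
  obtain ⟨p, hp⟩ := hbij.2 t
  exact ⟨p.1, p.1.2, p.2, p.2.2, hp.symm⟩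

theorem C_nab (h : F64 T ψ) (hx : Chi T ψ χ C) :
    ∃ m₁ ∈ C, ∃ m₂ ∈ C, m₁ * m₂ ≠ m₂ * m₁ := by
  by_contra hall
  push Not at hall
  apply h.nab
  have hcc : ∀ a ∈ C, ∀ b ∈ C, ⁅a, b⁆ = 1 := fun a ha b hb =>
    commutatorElement_eq_one_iff_mul_comm.mpr (hall a ha b hb)
  intro s t
  obtain ⟨c₁, hc₁, c₁', hc₁', rfl⟩ := decomp h hx s
  obtain ⟨c₂, hc₂, c₂', hc₂', rfl⟩ := decomp h hx t
  have k1 : Commute c₁ c₂ := hall c₁ hc₁ c₂ hc₂
  have k2 : Commute c₁ (ψ c₂') := by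
    show c₁ * ψ c₂' = ψ c₂' * c₁
    rw [← commutatorElement_eq_one_iff_mul_comm, twist_right h, hcc c₁ hc₁ c₂' hc₂', map_one,
      map_one]
  have k3 : Commute (ψ c₁') c₂ := by
    show ψ c₁' * c₂ = c₂ * ψ c₁'
    rw [← commutatorElement_eq_one_iff_mul_comm, twist_left h, hcc c₁' hc₁' c₂ hc₂, map_one,
      map_one]
  have k4 : Commute (ψ c₁') (ψ c₂') := by
    show ψ c₁' * ψ c₂' = ψ c₂' * ψ c₁'
    rw [← map_mul, ← map_mul, hall c₁' hc₁' c₂' hc₂']
  exact ((k1.mul_left k3).mul_right (k2.mul_left k4)).eq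

/-- The fixed points of `χ` form a dihedral or quaternion group of order eight, and there is a
non-central involution. -/
theorem chi_out (h : F64 T ψ) (hx : Chi T ψ χ C) :
    (∃ u : T, u ∉ Subgroup.center T ∧ u * u = 1) ∧
      (Nonempty (↥C ≃* DihedralGroup 4) ∨ Nonempty (↥C ≃* QuaternionGroup 2)) := by
  obtain ⟨v, hv, hv1, hvfix, hvall⟩ := exists_fixed h hx
  obtain ⟨m₁, hm₁, m₂, hm₂, hne⟩ := C_nab h hx
  have h8 := card_C h hx
  have hCE : ∀ g ∈ C, g ∈ Subgroup.center T → g = 1 ∨ g = v :=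
    fun g hg hgE => hvall g hgE ((hx.fix g).mp hg)
  have hcom : ⁅m₁, m₂⁆ = v := by
    have hmem : ⁅m₁, m₂⁆ ∈ C := by
      rw [commutatorElement_def]
      exact C.mul_mem (C.mul_mem (C.mul_mem hm₁ hm₂) (C.inv_mem hm₁)) (C.inv_mem hm₂)
    rcases hCE _ hmem (comm_mem h m₁ m₂) with h0 | h0
    · exact absurd (commutatorElement_eq_one_iff_mul_comm.mp h0) hne
    · exact h0
  have hsq : ∀ g ∈ C, g * g = 1 ∨ g * g = v :=
    fun g hg => hCE _ (C.mul_mem hg hg) (sq_mem h g)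
  rcases hsq m₁ hm₁ with s1 | s1
  · refine ⟨⟨m₁, ?_, s1⟩, Or.inl ?_⟩
    · intro hE
      exact hne (Ecomm h hE m₂)
    · exact Cfsg.Agent.Lib.Helper54.dih8_of_card h8 ⟨m₁, hm₁⟩ ⟨m₂, hm₂⟩ (Subtype.ext s1)
        (fun hc => hne (congrArg Subtype.val hc))
  · rcases hsq m₂ hm₂ with s2 | s2
    · refine ⟨⟨m₂, ?_, s2⟩, Or.inl ?_⟩
      · intro hE
        exact hne (Ecomm h hE m₁).symm
      · exact Cfsg.Agent.Lib.Helper54.dih8_of_card h8 ⟨m₂, hm₂⟩ ⟨m₁, hm₁⟩ (Subtype.ext s2)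
          (fun hc => hne (congrArg Subtype.val hc).symm)
    · refine ⟨⟨m₁ * ψ m₂, ?_, ?_⟩, Or.inr ?_⟩
      · intro hE
        have h1 : ⁅m₁ * ψ m₂, m₂⁆ = 1 := cEl h hE m₂
        rw [cml h, comm_self_psi h, mul_one, hcom] at h1
        exact hv1 h1
      · rw [sqm h, twist_left h, comm_symm h m₁ m₂, hcom, s1, ← map_mul, s2]
        have n3 := norm3 h.base v
        have hc := Ecomm h (psi_center h.base (psi_center h.base hv)) (v * ψ v)
        rw [mul_assoc, hc]
        exact n3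
      · refine q8_of_card h8 ⟨m₁, hm₁⟩ ⟨m₂, hm₂⟩ ?_ ?_ ?_ ?_
        · intro h0
          have h1 : m₁ * m₁ = 1 := congrArg Subtype.val h0
          rw [s1] at h1
          exact hv1 h1
        · apply Subtype.ext
          show (m₁ * m₁) * (m₁ * m₁) = 1
          rw [s1]
          exact sqZ h v hv
        · exact Subtype.ext (s2.trans s1.symm)
        · apply Subtype.ext
          show m₁ * m₂ = m₂ * m₁⁻¹
          have e : m₂ * m₁⁻¹ = m₁⁻¹ * ⁅m₁, m₂⁆ * m₂ := by
            rw [commutatorElement_def]; group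
          rw [e, hcom, ← s1]
          group

end ChiSec

end L3

end Cfsg.Agent.Lib.Helper28
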