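import Mathlib
import Cfsg.Agent.Lib.Helper81.ROBase

/-!
# Project RL (helper48, S2343), piece INVOL: the action of `H (-1)` on the translates
`T a 0 0 * H s`.
-/

set_option autoImplicit false

namespace Cfsg.Agent.Lib.Helper48.RL

open Cfsg.Agent.Lib.Helper81.RO

variable {F : Type*} [Field F] [Finite F] [CharP F 3] {G : Type*} [Group G] [Finite G]
variable {θ : F →+* F} {T : F → F → F → G} {H : Fˣ → G} {w : G}

-- piece RL-INVOL
theorem invol_formula (h : Ok θ T H w) (a : F) (s : Fˣ) :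
    H (-1) * (T a 0 0 * H s) = T (-a) 0 0 * H (-s) := by
  rw [← mul_assoc, h.HT, mul_assoc, ← h.H_mul]
  have e1 : T (((-1 : Fˣ) : F) * a) (((-1 : Fˣ) : F) * θ ((-1 : Fˣ) : F) * 0)
      (((-1 : Fˣ) : F) ^ 2 * θ ((-1 : Fˣ) : F) * 0) = T (-a) 0 0 :=
    T_congr (by simp) (by simp) (by simp)
  rw [e1, neg_one_mul]

end Cfsg.Agent.Lib.Helper48.RL
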