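import Mathlib
import Cfsg.Agent.Lib.Helper93.Sp4Defs

/-!
S2293 piece SP4-MOVES (job 1040, poster helper93): the torus action on the four positive root
maps, from `C2Root`.
-/

set_option autoImplicit false

namespace Cfsg.Agent.Lib.Helper93.Sp4

section level2

variable {F : Type*} [Field F] {P : Type*} [Group P] {ζ : F} {n : ℕ} {xa xb : F → P}
  {ha ta hb tb : P}

/-- MOVES -/
theorem c2Moves (D : C2Root ζ n xa xb ha ta hb tb) (hζ0 : ζ ≠ 0) :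
    C2Moves ζ xa xb ha ta hb tb := by
  have hz2 : ∀ a : F, ζ ^ 2 * (ζ⁻¹ ^ 2 * a) = a := by
    intro a; field_simp
  have hz2' : ∀ a : F, ζ⁻¹ ^ 2 * (ζ ^ 2 * a) = a := by
    intro a; field_simp
  have hz1 : ∀ a : F, ζ * (ζ⁻¹ * a) = a := by
    intro a; field_simp
  -- inverse forms of the torus action
  have a_ha : ∀ a, ha * xa a * ha⁻¹ = xa (ζ⁻¹ ^ 2 * a) := by
    intro a
    have h := D.a_ha (ζ⁻¹ ^ 2 * a)
    rw [hz2] at h
    rw [← h]; group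
  have b_hb : ∀ b, hb * xb b * hb⁻¹ = xb (ζ⁻¹ ^ 2 * b) := by
    intro b
    have h := D.b_hb (ζ⁻¹ ^ 2 * b)
    rw [hz2] at h
    rw [← h]; group
  have a_hbinv : ∀ a, hb⁻¹ * xa a * hb = xa (ζ⁻¹ * a) := by
    intro a
    have h := D.a_hb (ζ⁻¹ * a)
    rw [hz1] at h
    rw [← h]; group
  have b_ha : ∀ b, ha * xb b * ha⁻¹ = xb (ζ ^ 2 * b) := by
    intro b
    have h1 := D.b_hahb (ζ ^ 2 * b)
    rw [← D.b_hb b] at h1
    rw [← D.b_hb b, ← h1]; group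
  have b_hainv : ∀ b, ha⁻¹ * xb b * ha = xb (ζ⁻¹ ^ 2 * b) := by
    intro b
    have h := b_ha (ζ⁻¹ ^ 2 * b)
    rw [hz2] at h
    rw [← h]; group
  -- conjugates of the torus by the Weyl elements
  have tbi_hb : tb⁻¹ * hb * tb = hb⁻¹ := by
    have h := D.tb_hb
    have h' : tb * hb⁻¹ * tb⁻¹ = hb := by
      have : tb * hb⁻¹ * tb⁻¹ = (tb * hb * tb⁻¹)⁻¹ := by group
      rw [this, h, inv_inv]
    have : tb⁻¹ * hb * tb = tb⁻¹ * (tb * hb⁻¹ * tb⁻¹) * tb := by rw [h']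
    rw [this]; group
  have tbi_ha : tb⁻¹ * ha * tb = ha * hb * hb := by
    have h' : tb * (ha * hb * hb) * tb⁻¹ = ha := by
      have : tb * (ha * hb * hb) * tb⁻¹ =
          (tb * ha * tb⁻¹) * (tb * hb * tb⁻¹) * (tb * hb * tb⁻¹) := by group
      rw [this, D.tb_ha, D.tb_hb]; group
    have : tb⁻¹ * ha * tb = tb⁻¹ * (tb * (ha * hb * hb) * tb⁻¹) * tb := by rw [h']
    rw [this]; group
  have tai_ha : ta⁻¹ * ha * ta = ha⁻¹ := by
    have h' : ta * ha⁻¹ * ta⁻¹ = ha := by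
      have : ta * ha⁻¹ * ta⁻¹ = (ta * ha * ta⁻¹)⁻¹ := by group
      rw [this, D.ta_ha, inv_inv]
    have : ta⁻¹ * ha * ta = ta⁻¹ * (ta * ha⁻¹ * ta⁻¹) * ta := by rw [h']
    rw [this]; group
  have tai_hb : ta⁻¹ * hb * ta = ha * hb := by
    have h' : ta * (ha * hb) * ta⁻¹ = hb := by
      have : ta * (ha * hb) * ta⁻¹ = (ta * ha * ta⁻¹) * (ta * hb * ta⁻¹) := by group
      rw [this, D.ta_ha, D.ta_hb]; group
    have : ta⁻¹ * hb * ta = ta⁻¹ * (ta * (ha * hb) * ta⁻¹) * ta := by rw [h']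
    rw [this]; group
  refine ⟨a_ha, D.a_hb, b_ha, b_hb, ?_, ?_, ?_, ?_⟩
  · intro d
    have e : ha * (tb * xa d * tb⁻¹) * ha⁻¹ =
        tb * ((tb⁻¹ * ha * tb) * xa d * (tb⁻¹ * ha * tb)⁻¹) * tb⁻¹ := by group
    rw [e, tbi_ha]
    have e2 : ha * hb * hb * xa d * (ha * hb * hb)⁻¹ =
        ha * (hb * (hb * xa d * hb⁻¹) * hb⁻¹) * ha⁻¹ := by group
    rw [e2, D.a_hb, D.a_hb, a_ha]
    congr 3
    field_simp
  · intro d
    have e : hb * (tb * xa d * tb⁻¹) * hb⁻¹ =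
        tb * ((tb⁻¹ * hb * tb) * xa d * (tb⁻¹ * hb * tb)⁻¹) * tb⁻¹ := by group
    rw [e, tbi_hb, inv_inv, a_hbinv]
  · intro d
    have e : ha * (ta * xb d * ta⁻¹) * ha⁻¹ =
        ta * ((ta⁻¹ * ha * ta) * xb d * (ta⁻¹ * ha * ta)⁻¹) * ta⁻¹ := by group
    rw [e, tai_ha, inv_inv, b_hainv]
  · intro d
    have e : hb * (ta * xb d * ta⁻¹) * hb⁻¹ =
        ta * ((ta⁻¹ * hb * ta) * xb d * (ta⁻¹ * hb * ta)⁻¹) * ta⁻¹ := by group
    rw [e, tai_hb, D.b_hahb]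

end level2

end Cfsg.Agent.Lib.Helper93.Sp4
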