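import Mathlib
import Cfsg.Agent.Lib.Helper93.Sp4Defs

/-!
S2293 piece SP4-P2B (job 1055, poster helper93): closure step `Q < P`, family 2, `s ∈ {ta, tb}`.
-/

set_option autoImplicit false

namespace Cfsg.Agent.Lib.Helper93.Sp4

open Cfsg.Agent.Lib.Helper93.Sl3 (cj)

section level3

variable {P : Type*} [Group P] {q : ℕ} {Ua Ub T : Subgroup P} {ta tb : P}

/-- P2B -/
theorem c2_p_step2b (D : C2Data q Ua Ub T ta tb) (N : C2Act Ua Ub T ta tb)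
    (h2a : ∀ y ∈ YP2 Ua Ub ta tb, ∀ s ∈ ((Ua : Set P) ∪ (Ub : Set P) ∪ (T : Set P)),
      ∃ a ∈ Qsub Ua Ub T ta tb, ∃ y' ∈ YP2 Ua Ub ta tb, y * s = a * y') :
    ∀ y ∈ YP2 Ua Ub ta tb, ∀ s ∈ ({ta, tb} : Set P),
      ∃ a ∈ Qsub Ua Ub T ta tb, ∃ y' ∈ YP Ua Ub ta tb, y * s = a * y' := by
  have hTQ : ∀ τ ∈ T, τ ∈ Qsub Ua Ub T ta tb := fun τ hτ =>
    Subgroup.subset_closure (Or.inl (Or.inr hτ))
  have hUabQ : ∀ z ∈ cj tb Ua, z ∈ Qsub Ua Ub T ta tb := fun z hz =>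
    Subgroup.subset_closure (Or.inl (Or.inl (Or.inl (Or.inr hz))))
  have hta2 : ta * ta ∈ T := by
    have h := D.ta2
    rwa [pow_two] at h
  rintro y ⟨v, hv, z2, hz2, rfl⟩ s hs
  rcases hs with hs | hs
  · -- s = ta
    rw [hs]
    -- x := ta⁻¹ z2 ta ∈ Ub
    have hx : ta⁻¹ * z2 * ta ∈ Ub := by
      have h := Sl3.conj_mem_cj (n := ta⁻¹) hz2
      rw [N.tainv_aab, inv_inv] at h
      exact h
    set x := ta⁻¹ * z2 * ta with hxdef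
    by_cases hv1 : v = 1
    · refine ⟨tb * (ta * ta) * tb⁻¹, hTQ _ (D.Ttb _ hta2), tb * x, ?_, ?_⟩
      · exact Or.inl (Or.inl (Or.inr ⟨x, hx, rfl⟩))
      · rw [hv1, hxdef]; group
    · obtain ⟨w, hw, τ, hτ, v', hv', hrel⟩ := D.rank1a v hv hv1
      have hw' : ta * ta * w * (ta * ta)⁻¹ ∈ Ua := D.TUa _ hta2 w hw
      have hτ' : tb * (ta * τ * ta⁻¹) * tb⁻¹ ∈ T := D.Ttb _ (D.Tta τ hτ)
      have hy0 : tb * ta * v' * 1 ∈ YP2 Ua Ub ta tb := ⟨v', hv', 1, Subgroup.one_mem _, rfl⟩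
      obtain ⟨a0, ha0, y'', hy'', he⟩ := h2a _ hy0 x (Or.inl (Or.inr hx))
      refine ⟨tb * (ta * ta * w * (ta * ta)⁻¹) * tb⁻¹ * (tb * (ta * τ * ta⁻¹) * tb⁻¹) * a0,
        Subgroup.mul_mem _ (Subgroup.mul_mem _ (hUabQ _ (Sl3.conj_mem_cj hw')) (hTQ _ hτ')) ha0,
        y'', Or.inl (Or.inr hy''), ?_⟩
      rw [mul_assoc _ a0 y'', ← he]
      have e1 : tb * ta * v * z2 * ta = tb * ta * (v * ta) * x := by
        rw [hxdef]; group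
      rw [e1, hrel]
      group
  · -- s = tb
    rw [Set.mem_singleton_iff] at hs
    rw [hs]
    have h1 : tb⁻¹ * v * tb ∈ cj tb Ua := by
      have h := Sl3.conj_mem_cj (n := tb⁻¹) hv
      rw [N.tbinv_a, inv_inv] at h
      exact h
    have h2 : tb⁻¹ * z2 * tb ∈ cj ta Ub := by
      have h := Sl3.conj_mem_cj (n := tb⁻¹) hz2
      rw [N.tbinv_aab, inv_inv] at h
      exact h
    refine ⟨1, Subgroup.one_mem _, tb * ta * tb * 1 * (tb⁻¹ * v * tb) * (tb⁻¹ * z2 * tb), ?_, ?_⟩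
    · exact Or.inr ⟨1, Subgroup.one_mem _, _, h1, _, h2, rfl⟩
    · group

end level3

end Cfsg.Agent.Lib.Helper93.Sp4
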