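import Mathlib
import Cfsg.Agent.Lib.Helper60.U3Base
import Cfsg.Agent.Lib.Helper28.U3Grp

set_option autoImplicit false
set_option linter.style.haveILetI false
set_option linter.unusedSimpArgs false
set_option linter.unusedVariables false

/-! Explicit automorphisms of the Sylow 2-subgroup model `U3` of `SU₃(q)`, `q` even: the
semilinear ones and the central ones (helper28). -/

namespace Cfsg.Agent.Lib.Helper28.U3G

open Cfsg.Agent.Lib.Helper60 Cfsg.Agent.Lib.Helper7 Cfsg.Agent.Lib.Helper28.U3A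
  Cfsg.Agent.Lib.Helper28.U3S

variable {F : Type*} [Field F] [Fintype F] {q : ℕ}

/-- The endomorphism `(c, u) ↦ (μ ρ(c), μ μ^q ρ(u))`. -/
noncomputable def mkHom (hF : Fintype.card F = q ^ 2) (μ : F) (ρ : F →+* F) :
    ↥(U3 hF) →* ↥(U3 hF) where
  toFun a := ⟨⟨μ * ρ a.1.c, μ * μ ^ q * ρ a.1.u⟩, by
    have ha : a.1.u + a.1.u ^ q = a.1.c * a.1.c ^ q := a.2
    have h1 := congrArg ρ ha
    rw [map_add, map_mul, map_pow, map_pow] at h1
    show μ * μ ^ q * ρ a.1.u + (μ * μ ^ q * ρ a.1.u) ^ q = μ * ρ a.1.c * (μ * ρ a.1.c) ^ q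
    rw [mul_pow, mul_pow, mul_pow, herm_pow_pow hF]
    linear_combination (μ * μ ^ q) * h1⟩
  map_one' := by
    apply Subtype.ext
    apply Heis.ext
    · show μ * ρ 0 = 0
      rw [map_zero, mul_zero]
    · show μ * μ ^ q * ρ 0 = 0
      rw [map_zero, mul_zero]
  map_mul' a b := by
    apply Subtype.ext
    apply Heis.ext
    · show μ * ρ (a.1.c + b.1.c) = μ * ρ a.1.c + μ * ρ b.1.c
      rw [map_add]; ring
    · show μ * μ ^ q * ρ (a.1.u + b.1.u + a.1.c * b.1.c ^ q) =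
        μ * μ ^ q * ρ a.1.u + μ * μ ^ q * ρ b.1.u + μ * ρ a.1.c * (μ * ρ b.1.c) ^ q
      rw [map_add, map_add, map_mul, map_pow, mul_pow]; ring

theorem mkHom_c (hF : Fintype.card F = q ^ 2) (μ : F) (ρ : F →+* F) (a : ↥(U3 hF)) :
    (mkHom hF μ ρ a).1.c = μ * ρ a.1.c := rfl

theorem mkHom_u (hF : Fintype.card F = q ^ 2) (μ : F) (ρ : F →+* F) (a : ↥(U3 hF)) :
    (mkHom hF μ ρ a).1.u = μ * μ ^ q * ρ a.1.u := rfl

theorem mkHom_bijective (hF : Fintype.card F = q ^ 2) (μ : F) (hμ : μ ≠ 0) (ρ : F →+* F) :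
    Function.Bijective (mkHom hF μ ρ) := by
  haveI : Finite ↥(U3 hF) := Finite.of_injective (fun a : ↥(U3 hF) => (a.1.c, a.1.u)) (by
    intro a b hab
    simp only [Prod.mk.injEq] at hab
    exact Subtype.ext (Heis.ext hab.1 hab.2))
  apply Finite.injective_iff_bijective.mp
  intro a b hab
  have h1 : μ * ρ a.1.c = μ * ρ b.1.c := congrArg (fun x : ↥(U3 hF) => x.1.c) hab
  have h3 : μ * μ ^ q * ρ a.1.u = μ * μ ^ q * ρ b.1.u := congrArg (fun x : ↥(U3 hF) => x.1.u) hab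
  have hμq : μ * μ ^ q ≠ 0 := mul_ne_zero hμ (pow_ne_zero q hμ)
  apply Subtype.ext
  apply Heis.ext
  · exact ρ.injective (mul_left_cancel₀ hμ h1)
  · exact ρ.injective (mul_left_cancel₀ hμq h3)

/-- The automorphism `(c, u) ↦ (μ ρ(c), μ μ^q ρ(u))`. -/
noncomputable def mkAut (hF : Fintype.card F = q ^ 2) (μ : F) (hμ : μ ≠ 0) (ρ : F →+* F) :
    MulAut ↥(U3 hF) :=
  MulEquiv.ofBijective (mkHom hF μ ρ) (mkHom_bijective hF μ hμ ρ)

theorem c1_mkAut (hF : Fintype.card F = q ^ 2) (μ : F) (hμ : μ ≠ 0) (ρ : F →+* F) (c : F) :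
    c1 hF (mkAut hF μ hμ ρ) c = μ * ρ c := by
  show μ * ρ (lft hF c).1.c = μ * ρ c
  rw [lft_c]

/-- The central automorphism `(c, u) ↦ (c, u + f(c))`. -/
noncomputable def cenAut (hF : Fintype.card F = q ^ 2) (h2 : (2 : F) = 0) (f : F →+ F)
    (hf : ∀ c, f c ^ q = f c) : MulAut ↥(U3 hF) where
  toFun a := ⟨⟨a.1.c, a.1.u + f a.1.c⟩, by
    have ha : a.1.u + a.1.u ^ q = a.1.c * a.1.c ^ q := a.2
    show a.1.u + f a.1.c + (a.1.u + f a.1.c) ^ q = a.1.c * a.1.c ^ q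
    rw [herm_add_pow hF, hf]
    linear_combination ha + f a.1.c * h2⟩
  invFun a := ⟨⟨a.1.c, a.1.u + f a.1.c⟩, by
    have ha : a.1.u + a.1.u ^ q = a.1.c * a.1.c ^ q := a.2
    show a.1.u + f a.1.c + (a.1.u + f a.1.c) ^ q = a.1.c * a.1.c ^ q
    rw [herm_add_pow hF, hf]
    linear_combination ha + f a.1.c * h2⟩
  left_inv a := by
    apply Subtype.ext
    apply Heis.ext
    · rfl
    · show a.1.u + f a.1.c + f a.1.c = a.1.u
      linear_combination f a.1.c * h2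
  right_inv a := by
    apply Subtype.ext
    apply Heis.ext
    · rfl
    · show a.1.u + f a.1.c + f a.1.c = a.1.u
      linear_combination f a.1.c * h2
  map_mul' a b := by
    apply Subtype.ext
    apply Heis.ext
    · rfl
    · show a.1.u + b.1.u + a.1.c * b.1.c ^ q + f (a.1.c + b.1.c) =
        a.1.u + f a.1.c + (b.1.u + f b.1.c) + a.1.c * b.1.c ^ q
      rw [map_add]; ring

theorem cenAut_c (hF : Fintype.card F = q ^ 2) (h2 : (2 : F) = 0) (f : F →+ F)
    (hf : ∀ c, f c ^ q = f c) (a : ↥(U3 hF)) : (cenAut hF h2 f hf a).1.c = a.1.c := rfl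

theorem cenAut_u (hF : Fintype.card F = q ^ 2) (h2 : (2 : F) = 0) (f : F →+ F)
    (hf : ∀ c, f c ^ q = f c) (a : ↥(U3 hF)) :
    (cenAut hF h2 f hf a).1.u = a.1.u + f a.1.c := rfl

theorem c1_cenAut (hF : Fintype.card F = q ^ 2) (h2 : (2 : F) = 0) (f : F →+ F)
    (hf : ∀ c, f c ^ q = f c) (c : F) : c1 hF (cenAut hF h2 f hf) c = c := lft_c hF c

theorem sq_congr (hF : Fintype.card F = q ^ 2) (h2 : (2 : F) = 0) (a b : ↥(U3 hF))
    (hab : a.1.c = b.1.c) : a * a = b * b := by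
  apply Subtype.ext
  apply Heis.ext
  · show a.1.c + a.1.c = b.1.c + b.1.c
    rw [hab]
  · show a.1.u + a.1.u + a.1.c * a.1.c ^ q = b.1.u + b.1.u + b.1.c * b.1.c ^ q
    rw [hab]
    linear_combination (a.1.u - b.1.u) * h2

/-- An automorphism acting trivially on the first coordinate fixes the centre pointwise. -/
theorem ker_fix_center (hF : Fintype.card F = q ^ 2) (h2 : (2 : F) = 0) (τ : MulAut ↥(U3 hF))
    (hτ : ∀ c, c1 hF τ c = c) (z : ↥(U3 hF)) (hz : z.1.c = 0) : τ z = z := by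
  have hc : ∀ a : ↥(U3 hF), (τ a).1.c = a.1.c := fun a => by rw [c1_spec hF h2, hτ]
  have hzK : z.1.u ^ q = z.1.u := by
    have hm : z.1.u + z.1.u ^ q = z.1.c * z.1.c ^ q := z.2
    rw [hz, zero_mul] at hm
    linear_combination hm - z.1.u * h2
  obtain ⟨c₀, hc₀⟩ : ∃ c₀ : F, c₀ * c₀ ^ q = z.1.u := by
    by_cases hy0 : z.1.u = 0
    · exact ⟨0, by rw [hy0, zero_mul]⟩
    · obtain ⟨t, -, ht⟩ := herm_norm_surj hF z.1.u hy0 hzK
      exact ⟨t, by rw [← ht, pow_succ']⟩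
  have e : lft hF c₀ * lft hF c₀ = z := by
    apply Subtype.ext
    apply Heis.ext
    · show (lft hF c₀).1.c + (lft hF c₀).1.c = z.1.c
      rw [lft_c, hz]; linear_combination c₀ * h2
    · show (lft hF c₀).1.u + (lft hF c₀).1.u + (lft hF c₀).1.c * (lft hF c₀).1.c ^ q = z.1.u
      rw [lft_c, hc₀]; linear_combination (lft hF c₀).1.u * h2
  rw [← e, map_mul]
  exact sq_congr hF h2 _ _ (hc _)

/-- The automorphisms acting trivially on the first coordinate are the central ones. -/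
theorem ker_eq_cenAut (hF : Fintype.card F = q ^ 2) (h2 : (2 : F) = 0) (τ : MulAut ↥(U3 hF))
    (hτ : ∀ c, c1 hF τ c = c) :
    ∃ (f : F →+ F) (hf : ∀ c, f c ^ q = f c), τ = cenAut hF h2 f hf := by
  have hc : ∀ a : ↥(U3 hF), (τ a).1.c = a.1.c := fun a => by rw [c1_spec hF h2, hτ]
  have hfixz := ker_fix_center hF h2 τ hτ
  -- the defect
  have hu : ∀ a : ↥(U3 hF),
      (τ a).1.u = a.1.u + ((τ (lft hF a.1.c)).1.u - (lft hF a.1.c).1.u) := by
    intro a
    obtain ⟨b, hb⟩ : ∃ b : ↥(U3 hF), b = lft hF a.1.c := ⟨_, rfl⟩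
    rw [← hb]
    have hbc : b.1.c = a.1.c := by rw [hb, lft_c]
    obtain ⟨z, hzdef⟩ : ∃ z : ↥(U3 hF), z = a * b⁻¹ := ⟨_, rfl⟩
    have hzc : z.1.c = 0 := by
      rw [hzdef]
      show a.1.c + -b.1.c = 0
      rw [hbc]; ring
    have ha : a = z * b := by rw [hzdef, inv_mul_cancel_right]
    have h1 : (τ a).1.u = z.1.u + (τ b).1.u + z.1.c * (τ b).1.c ^ q := by
      have : τ a = z * τ b := by
        conv_lhs => rw [ha, map_mul, hfixz z hzc]
      rw [this]
      rfl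
    have h3 : a.1.u = z.1.u + b.1.u + z.1.c * b.1.c ^ q := by
      conv_lhs => rw [ha]
      rfl
    rw [h1, h3, hzc]
    ring
  have hg : ∀ c : F, (τ (lft hF c)).1.u = (lft hF c).1.u +
      ((τ (lft hF c)).1.u - (lft hF c).1.u) := fun c => by ring
  have hadd : ∀ c c' : F,
      (τ (lft hF (c + c'))).1.u - (lft hF (c + c')).1.u =
        ((τ (lft hF c)).1.u - (lft hF c).1.u) + ((τ (lft hF c')).1.u - (lft hF c').1.u) := by
    intro c c'
    have h1 := hu (lft hF c * lft hF c')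
    have hcc : (lft hF c * lft hF c').1.c = c + c' := by
      show (lft hF c).1.c + (lft hF c').1.c = c + c'
      rw [lft_c, lft_c]
    rw [hcc, map_mul] at h1
    have h3 : (τ (lft hF c) * τ (lft hF c')).1.u =
        (τ (lft hF c)).1.u + (τ (lft hF c')).1.u +
          (τ (lft hF c)).1.c * (τ (lft hF c')).1.c ^ q := rfl
    have h4 : (lft hF c * lft hF c').1.u =
        (lft hF c).1.u + (lft hF c').1.u + (lft hF c).1.c * (lft hF c').1.c ^ q := rfl
    rw [h3, h4, hc, hc] at h1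
    linear_combination -h1
  have hK : ∀ c : F, ((τ (lft hF c)).1.u - (lft hF c).1.u) ^ q =
      (τ (lft hF c)).1.u - (lft hF c).1.u := by
    intro c
    have m1 : (τ (lft hF c)).1.u + (τ (lft hF c)).1.u ^ q =
        (τ (lft hF c)).1.c * (τ (lft hF c)).1.c ^ q := (τ (lft hF c)).2
    have m2 : (lft hF c).1.u + (lft hF c).1.u ^ q =
        (lft hF c).1.c * (lft hF c).1.c ^ q := (lft hF c).2
    rw [hc] at m1
    rw [herm_sub_pow hF]
    linear_combination m1 - m2 - ((τ (lft hF c)).1.u - (lft hF c).1.u) * h2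
  refine ⟨AddMonoidHom.mk' (fun c => (τ (lft hF c)).1.u - (lft hF c).1.u) hadd, hK, ?_⟩
  apply MulEquiv.ext
  intro a
  apply Subtype.ext
  apply Heis.ext
  · exact hc a
  · exact hu a

end Cfsg.Agent.Lib.Helper28.U3G
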