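import Mathlib
import Cfsg.Prelude.Def_Solvable
import Cfsg.Agent.Lib.Helper60.U3Base
import Cfsg.Agent.Lib.Helper55.Basic
import Cfsg.Agent.Lib.Helper28.U3Grp2

set_option autoImplicit false
set_option linter.style.haveILetI false
set_option linter.unusedSimpArgs false
set_option linter.unusedVariables false

/-! Counting the automorphisms of the Sylow 2-subgroup model `U3` of `SU₃(q)`, `q` even
(helper28). -/

namespace Cfsg.Agent.Lib.Helper28.U3G

open Cfsg.Agent.Lib.Helper60 Cfsg.Agent.Lib.Helper7 Cfsg.Agent.Lib.Helper28.U3A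
  Cfsg.Agent.Lib.Helper28.U3S

variable {F : Type*} [Field F] [Fintype F] {q : ℕ}

theorem cenAut_congr (hF : Fintype.card F = q ^ 2) (h2 : (2 : F) = 0) (f f' : F →+ F)
    (hf : ∀ c, f c ^ q = f c) (hf' : ∀ c, f' c ^ q = f' c) (h : ∀ c, f c = f' c) :
    cenAut hF h2 f hf = cenAut hF h2 f' hf' := by
  apply MulEquiv.ext
  intro a
  apply Subtype.ext
  apply Heis.ext
  · rfl
  · show a.1.u + f a.1.c = a.1.u + f' a.1.c
    rw [h]

theorem cenAut_sq (hF : Fintype.card F = q ^ 2) (h2 : (2 : F) = 0) (f : F →+ F)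
    (hf : ∀ c, f c ^ q = f c) : cenAut hF h2 f hf * cenAut hF h2 f hf = 1 := by
  apply MulEquiv.ext
  intro a
  apply Subtype.ext
  apply Heis.ext
  · rfl
  · show a.1.u + f a.1.c + f a.1.c = a.1.u
    linear_combination f a.1.c * h2

theorem cenAut_comm (hF : Fintype.card F = q ^ 2) (h2 : (2 : F) = 0) (f g : F →+ F)
    (hf : ∀ c, f c ^ q = f c) (hg : ∀ c, g c ^ q = g c) :
    cenAut hF h2 f hf * cenAut hF h2 g hg = cenAut hF h2 g hg * cenAut hF h2 f hf := by
  apply MulEquiv.ext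
  intro a
  apply Subtype.ext
  apply Heis.ext
  · rfl
  · show a.1.u + g a.1.c + f a.1.c = a.1.u + f a.1.c + g a.1.c
    ring

theorem ker_sq (hF : Fintype.card F = q ^ 2) (h2 : (2 : F) = 0) (τ : MulAut ↥(U3 hF))
    (hτ : τ ∈ (Phi hF h2).ker) : τ * τ = 1 := by
  obtain ⟨f, hf, rfl⟩ := ker_eq_cenAut hF h2 τ ((mem_ker_iff hF h2 τ).mp hτ)
  exact cenAut_sq hF h2 f hf

theorem ker_comm (hF : Fintype.card F = q ^ 2) (h2 : (2 : F) = 0) (τ τ' : MulAut ↥(U3 hF))
    (hτ : τ ∈ (Phi hF h2).ker) (hτ' : τ' ∈ (Phi hF h2).ker) : τ * τ' = τ' * τ := by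
  obtain ⟨f, hf, rfl⟩ := ker_eq_cenAut hF h2 τ ((mem_ker_iff hF h2 τ).mp hτ)
  obtain ⟨g, hg, rfl⟩ := ker_eq_cenAut hF h2 τ' ((mem_ker_iff hF h2 τ').mp hτ')
  exact cenAut_comm hF h2 f g hf hg

instance finiteU3 (hF : Fintype.card F = q ^ 2) : Finite ↥(U3 hF) :=
  Finite.of_injective (fun a : ↥(U3 hF) => (a.1.c, a.1.u)) (by
    intro a b hab
    simp only [Prod.mk.injEq] at hab
    exact Subtype.ext (Heis.ext hab.1 hab.2))

section Count

variable [Algebra (ZMod 2) F]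

theorem zmod2_pow (r : ZMod 2) (hq : q ≠ 0) : r ^ q = r := by
  have h : ∀ r : ZMod 2, r = 0 ∨ r = 1 := by decide
  rcases h r with rfl | rfl
  · exact zero_pow hq
  · exact one_pow q

/-- The fixed field of the `q`-power map as a `ZMod 2`-subspace. -/
def Kmod (hF : Fintype.card F = q ^ 2) : Submodule (ZMod 2) F where
  carrier := {x | x ^ q = x}
  add_mem' := fun {a b} ha hb => by
    show (a + b) ^ q = a + b
    have ha' : a ^ q = a := ha
    have hb' : b ^ q = b := hb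
    rw [herm_add_pow hF, ha', hb']
  zero_mem' := zero_pow (herm_q_ne_zero hF)
  smul_mem' := fun r x hx => by
    show (r • x) ^ q = r • x
    have hx' : x ^ q = x := hx
    rw [Algebra.smul_def, mul_pow, hx', ← map_pow, zmod2_pow r (herm_q_ne_zero hF)]

theorem mem_Kmod (hF : Fintype.card F = q ^ 2) (x : F) : x ∈ Kmod hF ↔ x ^ q = x := Iff.rfl

theorem card_Kmod (hF : Fintype.card F = q ^ 2) (h2 : (2 : F) = 0) :
    Nat.card ↥(Kmod hF) = q := by
  exact (Nat.card_congr (Equiv.subtypeEquivRight fun x => Iff.rfl)).trans (card_Fixq hF h2)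

theorem card_lin (hF : Fintype.card F = q ^ 2) (h2 : (2 : F) = 0) :
    Nat.card (F →ₗ[ZMod 2] ↥(Kmod hF)) = q ^ Module.finrank (ZMod 2) F := by
  have e := ((Module.finBasis (ZMod 2) F).constr ℕ (M' := ↥(Kmod hF))).toEquiv
  rw [← Nat.card_congr e, Nat.card_fun, card_Kmod hF h2, Nat.card_fin]

theorem card_ker (hF : Fintype.card F = q ^ 2) (h2 : (2 : F) = 0) :
    Nat.card ↥(Phi hF h2).ker = q ^ Module.finrank (ZMod 2) F := by
  rw [← card_lin hF h2]
  symm
  apply Nat.card_congr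
  refine Equiv.ofBijective (fun g : F →ₗ[ZMod 2] ↥(Kmod hF) =>
    (⟨cenAut hF h2 (((Kmod hF).subtype.comp g).toAddMonoidHom) (fun c => (g c).2),
      (mem_ker_iff hF h2 _).mpr (c1_cenAut hF h2 _ _)⟩ : ↥(Phi hF h2).ker)) ⟨?_, ?_⟩
  · intro g g' hgg
    have h1 : cenAut hF h2 (((Kmod hF).subtype.comp g).toAddMonoidHom) (fun c => (g c).2) =
        cenAut hF h2 (((Kmod hF).subtype.comp g').toAddMonoidHom) (fun c => (g' c).2) :=
      congrArg Subtype.val hgg
    apply LinearMap.ext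
    intro c
    apply Subtype.ext
    have h3 := congrArg (fun τ : MulAut ↥(U3 hF) => (τ (lft hF c)).1.u) h1
    have h4 : (lft hF c).1.u + ((g ((lft hF c).1.c) : ↥(Kmod hF)) : F) =
        (lft hF c).1.u + ((g' ((lft hF c).1.c) : ↥(Kmod hF)) : F) := h3
    rw [lft_c] at h4
    exact add_left_cancel h4
  · rintro ⟨τ, hτ⟩
    obtain ⟨f, hf, rfl⟩ := ker_eq_cenAut hF h2 τ ((mem_ker_iff hF h2 τ).mp hτ)
    refine ⟨LinearMap.codRestrict (Kmod hF) (f.toZModLinearMap 2) (fun c => hf c), ?_⟩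
    apply Subtype.ext
    exact cenAut_congr hF h2 (((Kmod hF).subtype.comp (LinearMap.codRestrict (Kmod hF)
      (f.toZModLinearMap 2) (fun c => hf c))).toAddMonoidHom) f (fun c => hf c) hf (fun c => rfl)

theorem card_ringHom : Nat.card (F →+* F) = Module.finrank (ZMod 2) F := by
  have e : (F →+* F) ≃ (F →ₐ[ZMod 2] F) :=
    { toFun := fun f => AlgHom.mk f (fun r =>
        RingHom.congr_fun (Subsingleton.elim (f.comp (algebraMap (ZMod 2) F))
          (algebraMap (ZMod 2) F)) r)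
      invFun := fun g => g.toRingHom
      left_inv := fun f => rfl
      right_inv := fun g => rfl }
  rw [Nat.card_congr e,
    ← Nat.card_congr (Algebra.IsAlgebraic.algEquivEquivAlgHom (ZMod 2) F).toEquiv,
    IsGalois.card_aut_eq_finrank]

end Count

theorem card_range (hF : Fintype.card F = q ^ 2) (h2 : (2 : F) = 0) :
    Nat.card ↥(Phi hF h2).range = Nat.card Fˣ * Nat.card (F →+* F) := by
  rw [← Nat.card_prod]
  symm
  apply Nat.card_congr
  refine Equiv.ofBijective (fun p : Fˣ × (F →+* F) =>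
    (⟨Phi hF h2 (mkAut hF (p.1 : F) p.1.ne_zero p.2), ⟨_, rfl⟩⟩ : ↥(Phi hF h2).range)) ⟨?_, ?_⟩
  · rintro ⟨μ, ρ⟩ ⟨μ', ρ'⟩ hpp
    have h1 : Phi hF h2 (mkAut hF (μ : F) μ.ne_zero ρ) =
        Phi hF h2 (mkAut hF (μ' : F) μ'.ne_zero ρ') := congrArg Subtype.val hpp
    have h3 : ∀ c : F, (μ : F) * ρ c = (μ' : F) * ρ' c := by
      intro c
      have := congrArg (fun e : Equiv.Perm F => e c) h1
      simp only [Phi_apply, c1_mkAut] at this
      exact this
    have h4 : (μ : F) = (μ' : F) := by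
      have := h3 1
      rw [map_one, map_one, mul_one, mul_one] at this
      exact this
    have h5 : μ = μ' := Units.ext h4
    subst h5
    have h6 : ρ = ρ' := RingHom.ext fun c => mul_left_cancel₀ μ.ne_zero (h3 c)
    rw [h6]
  · rintro ⟨_, τ, rfl⟩
    obtain ⟨hμ, ρ, hρ⟩ := c1_form hF h2 τ
    refine ⟨(Units.mk0 _ hμ, ρ), ?_⟩
    apply Subtype.ext
    apply Equiv.ext
    intro c
    show Phi hF h2 (mkAut hF _ _ ρ) c = Phi hF h2 τ c
    rw [Phi_apply, Phi_apply, c1_mkAut]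
    exact (hρ c).symm

theorem card_aut (hF : Fintype.card F = q ^ 2) (h2 : (2 : F) = 0) :
    Nat.card (MulAut ↥(U3 hF)) =
      Nat.card ↥(Phi hF h2).ker * (Nat.card Fˣ * Nat.card (F →+* F)) := by
  rw [← card_range hF h2, Subgroup.card_eq_card_quotient_mul_card_subgroup (Phi hF h2).ker,
    Nat.card_congr (QuotientGroup.quotientKerEquivRange (Phi hF h2)).toEquiv, mul_comm]

end Cfsg.Agent.Lib.Helper28.U3G
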