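import Mathlib

set_option autoImplicit false
set_option linter.style.haveILetI false
set_option linter.unusedSimpArgs false
set_option linter.unusedVariables false

/-! Norm-compatible additive bijections of a quadratic extension in characteristic 2 are a scalar
times a ring endomorphism (helper28): algebra for the automorphism group of the Sylow
2-subgroups of `SU₃(q)`, `q` even. -/

namespace Cfsg.Agent.Lib.Helper28.U3S

variable {F : Type*} [Field F]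

/-- An involutive ring endomorphism `σ` in characteristic 2 with surjective trace and norm,
and an injective additive map `τ₁` compatible with the norm through `τ₀` (injective on the
fixed field). -/
structure Dat2 (σ : F →+* F) (τ₁ τ₀ : F → F) : Prop where
  inv : ∀ x, σ (σ x) = x
  two : (2 : F) = 0
  tr : ∀ f, σ f = f → ∃ u, u + σ u = f
  nm : ∀ y, σ y = y → ∃ c, c * σ c = y
  add1 : ∀ a b, τ₁ (a + b) = τ₁ a + τ₁ b
  inj1 : ∀ a b, τ₁ a = τ₁ b → a = b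
  add0 : ∀ x y, σ x = x → σ y = y → τ₀ (x + y) = τ₀ x + τ₀ y
  inj0 : ∀ x y, σ x = x → σ y = y → τ₀ x = τ₀ y → x = y
  hN : ∀ c, τ₁ c * σ (τ₁ c) = τ₀ (c * σ c)

namespace Dat2

variable {σ : F →+* F} {τ₁ τ₀ : F → F}

theorem t1_zero (h : Dat2 σ τ₁ τ₀) : τ₁ 0 = 0 := by
  have h1 := h.add1 0 0
  rw [add_zero] at h1
  linear_combination -h1

theorem t1_ne (h : Dat2 σ τ₁ τ₀) {a : F} (ha : a ≠ 0) : τ₁ a ≠ 0 :=
  fun h0 => ha (h.inj1 _ _ (h0.trans h.t1_zero.symm))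

theorem s_ne (h : Dat2 σ τ₁ τ₀) {a : F} (ha : a ≠ 0) : σ a ≠ 0 := by
  intro h0
  apply ha
  rw [← h.inv a, h0, map_zero]

theorem norm_mem (h : Dat2 σ τ₁ τ₀) (c : F) : σ (c * σ c) = c * σ c := by
  rw [map_mul, h.inv]; ring

theorem t0_mem (h : Dat2 σ τ₁ τ₀) {y : F} (hy : σ y = y) : σ (τ₀ y) = τ₀ y := by
  obtain ⟨c, rfl⟩ := h.nm y hy
  rw [← h.hN]; exact h.norm_mem _

theorem t0_zero (h : Dat2 σ τ₁ τ₀) : τ₀ 0 = 0 := by
  have h1 := h.add0 0 0 (map_zero σ) (map_zero σ)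
  rw [add_zero] at h1
  linear_combination -h1

theorem d_ne (h : Dat2 σ τ₁ τ₀) : τ₀ 1 ≠ 0 := by
  intro h0
  exact one_ne_zero (h.inj0 _ _ (map_one σ) (map_zero σ) (h0.trans h.t0_zero.symm))

theorem d_mem (h : Dat2 σ τ₁ τ₀) : σ (τ₀ 1) = τ₀ 1 := h.t0_mem (map_one σ)

theorem polar (h : Dat2 σ τ₁ τ₀) (v w : F) :
    τ₁ v * σ (τ₁ w) + σ (τ₁ v) * τ₁ w = τ₀ (v * σ w + σ v * w) := by
  have h1 := h.hN (v + w)
  have hB : σ (v * σ w + σ v * w) = v * σ w + σ v * w := by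
    simp only [map_add, map_mul, h.inv]; ring
  have e : (v + w) * σ (v + w) = (v * σ v + w * σ w) + (v * σ w + σ v * w) := by
    rw [map_add]; ring
  rw [e, h.add0 _ _ (by rw [map_add, h.norm_mem, h.norm_mem]) hB,
    h.add0 _ _ (h.norm_mem v) (h.norm_mem w), ← h.hN, ← h.hN, h.add1, map_add] at h1
  linear_combination h1

theorem line (h : Dat2 σ τ₁ τ₀) {a b : F} (ha : a ≠ 0) (hab : a * σ b + σ a * b = 0) :
    σ (b / a) = b / a := by
  have hσa : σ a ≠ 0 := h.s_ne ha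
  rw [map_div₀, div_eq_div_iff hσa ha]
  linear_combination hab - (σ a * b) * h.two

theorem polar_surj (h : Dat2 σ τ₁ τ₀) {w y : F} (hw : w ≠ 0) (hy : σ y = y) :
    ∃ u, w * σ u + σ w * u = y := by
  obtain ⟨u₀, hu₀⟩ := h.tr y hy
  have hσw : σ w ≠ 0 := h.s_ne hw
  refine ⟨u₀ / σ w, ?_⟩
  rw [map_div₀, h.inv]
  field_simp
  linear_combination hu₀

theorem key (h : Dat2 σ τ₁ τ₀) {x w : F} (hx : σ x = x) (hw : w ≠ 0) :
    ∃ ρ, σ ρ = ρ ∧ τ₁ (x * w) = ρ * τ₁ w ∧ ∀ y, σ y = y → τ₀ (x * y) = ρ * τ₀ y := by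
  have hne := h.t1_ne hw
  have hr : σ (τ₁ (x * w) / τ₁ w) = τ₁ (x * w) / τ₁ w := by
    apply h.line hne
    rw [h.polar]
    have e0 : w * σ (x * w) + σ w * (x * w) = 0 := by
      rw [map_mul, hx]; linear_combination (x * w * σ w) * h.two
    rw [e0, h.t0_zero]
  have e2 : τ₁ (x * w) = τ₁ (x * w) / τ₁ w * τ₁ w := by field_simp
  refine ⟨τ₁ (x * w) / τ₁ w, hr, e2, ?_⟩
  intro y hy
  obtain ⟨u, hu⟩ := h.polar_surj hw hy
  have h1 := h.polar (x * w) u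
  have h2 := h.polar w u
  have e1 : x * w * σ u + σ (x * w) * u = x * y := by rw [map_mul, hx, ← hu]; ring
  rw [e1] at h1
  rw [hu] at h2
  have e3 : σ (τ₁ (x * w)) = τ₁ (x * w) / τ₁ w * σ (τ₁ w) := by
    conv_lhs => rw [e2, map_mul, hr]
  rw [← h1, ← h2, e3]
  generalize τ₁ (x * w) / τ₁ w = ρ at e2 ⊢
  rw [e2]
  ring

theorem semi (h : Dat2 σ τ₁ τ₀) {x : F} (hx : σ x = x) (w : F) :
    τ₁ (x * w) = τ₀ x / τ₀ 1 * τ₁ w := by
  by_cases hw : w = 0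
  · rw [hw, mul_zero, h.t1_zero, mul_zero]
  · obtain ⟨ρ, -, h1, h2⟩ := h.key hx hw
    have h3 := h2 1 (map_one σ)
    rw [mul_one] at h3
    rw [h1, h3]
    have := h.d_ne
    field_simp

/-- The norm of `τ₁ 1` is `τ₀ 1`. -/
theorem norm_mu (h : Dat2 σ τ₁ τ₀) : τ₁ 1 * σ (τ₁ 1) = τ₀ 1 := by
  have := h.hN 1
  rw [map_one, mul_one] at this
  exact this

theorem mu_ne (h : Dat2 σ τ₁ τ₀) : τ₁ 1 ≠ 0 := h.t1_ne one_ne_zero

/-- `ρ₁ = τ₁ / τ₁ 1` is multiplicative when one factor is fixed by `σ`. -/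
theorem rho_semi (h : Dat2 σ τ₁ τ₀) {x : F} (hx : σ x = x) (w : F) :
    τ₁ (x * w) / τ₁ 1 = τ₁ x / τ₁ 1 * (τ₁ w / τ₁ 1) := by
  have h1 := h.semi hx w
  have h2 := h.semi hx 1
  rw [mul_one] at h2
  have hμ := h.mu_ne
  have hd := h.d_ne
  rw [h1, h2]
  field_simp

theorem rho_norm (h : Dat2 σ τ₁ τ₀) (c : F) :
    τ₁ c / τ₁ 1 * σ (τ₁ c / τ₁ 1) = τ₁ (c * σ c) / τ₁ 1 := by
  have h1 := h.semi (h.norm_mem c) 1
  rw [mul_one] at h1
  have hμ := h.mu_ne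
  have hσμ := h.s_ne hμ
  have hd := h.d_ne
  have hn := h.norm_mu
  rw [h1, map_div₀, ← h.hN c]
  field_simp
  rw [← hn]
  ring

theorem rho_trace (h : Dat2 σ τ₁ τ₀) {l : F} (hl : l + σ l = 1) :
    τ₁ l / τ₁ 1 + σ (τ₁ l / τ₁ 1) = 1 := by
  have hp := h.polar 1 l
  have e : (1 : F) * σ l + σ 1 * l = 1 := by rw [map_one]; linear_combination hl
  rw [e] at hp
  have hμ := h.mu_ne
  have hσμ := h.s_ne hμ
  have hn := h.norm_mu
  rw [map_div₀]
  field_simp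
  linear_combination hp - hn

/-- `τ₁` is a nonzero scalar times an injective ring endomorphism. -/
theorem exists_ringHom (h : Dat2 σ τ₁ τ₀) :
    ∃ ρ : F →+* F, Function.Injective ρ ∧ ∀ c, τ₁ c = τ₁ 1 * ρ c := by
  have hμ := h.mu_ne
  obtain ⟨l, hl⟩ := h.tr 1 (map_one σ)
  have hadd : ∀ a b, τ₁ (a + b) / τ₁ 1 = τ₁ a / τ₁ 1 + τ₁ b / τ₁ 1 := by
    intro a b
    rw [h.add1, add_div]
  have hNl : σ (l * σ l) = l * σ l := h.norm_mem l
  -- the key relation for `r = ρ₁ l`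
  have hr : τ₁ l / τ₁ 1 * (τ₁ l / τ₁ 1) = τ₁ l / τ₁ 1 + τ₁ (l * σ l) / τ₁ 1 := by
    have h1 := h.rho_norm l
    have h2 := h.rho_trace hl
    generalize τ₁ l / τ₁ 1 = r at h1 h2 ⊢
    generalize τ₁ (l * σ l) / τ₁ 1 = m at h1 ⊢
    linear_combination r * h2 - h1 - m * h.two
  have hll : l * l = l + l * σ l := by linear_combination l * hl - (l * σ l) * h.two
  -- decomposition
  have hdec : ∀ c : F, ∃ x y, σ x = x ∧ σ y = y ∧ c = x + y * l := by
    intro c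
    have hσl : σ l = 1 + l := by linear_combination hl - l * h.two
    refine ⟨c + (c + σ c) * l, c + σ c, ?_, ?_, ?_⟩
    · rw [map_add, map_mul, map_add, h.inv, hσl]
      linear_combination (σ c) * h.two
    · rw [map_add, h.inv, add_comm]
    · linear_combination (-(c + σ c) * l) * h.two
  -- multiplicativity with `l`
  have hlmul : ∀ c : F, τ₁ (l * c) / τ₁ 1 = τ₁ l / τ₁ 1 * (τ₁ c / τ₁ 1) := by
    intro c
    obtain ⟨x, y, hx, hy, rfl⟩ := hdec c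
    have e1 : l * (x + y * l) = x * l + (y * l + y * (l * σ l)) := by
      linear_combination y * hll
    rw [e1, hadd, hadd, h.rho_semi hx, h.rho_semi hy, h.rho_semi hy, hadd, h.rho_semi hy]
    have e2 : τ₁ x / τ₁ 1 = τ₁ (x * 1) / τ₁ 1 := by rw [mul_one]
    generalize τ₁ l / τ₁ 1 = r at hr ⊢
    generalize τ₁ (l * σ l) / τ₁ 1 = m at hr ⊢
    generalize τ₁ x / τ₁ 1 = a
    generalize τ₁ y / τ₁ 1 = b
    linear_combination -b * hr
  have hmul : ∀ c c' : F, τ₁ (c * c') / τ₁ 1 = τ₁ c / τ₁ 1 * (τ₁ c' / τ₁ 1) := by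
    intro c c'
    obtain ⟨x, y, hx, hy, rfl⟩ := hdec c
    have e1 : (x + y * l) * c' = x * c' + y * (l * c') := by ring
    rw [e1, hadd, h.rho_semi hx, h.rho_semi hy, hlmul, hadd, h.rho_semi hy]
    ring
  have hone : τ₁ 1 / τ₁ 1 = 1 := div_self hμ
  refine ⟨{ toFun := fun c => τ₁ c / τ₁ 1
            map_one' := hone
            map_mul' := hmul
            map_zero' := by rw [h.t1_zero, zero_div]
            map_add' := hadd }, ?_, ?_⟩
  · intro a b hab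
    have h1 : τ₁ a / τ₁ 1 = τ₁ b / τ₁ 1 := hab
    apply h.inj1
    field_simp at h1
    exact h1
  · intro c
    show τ₁ c = τ₁ 1 * (τ₁ c / τ₁ 1)
    field_simp

end Dat2

end Cfsg.Agent.Lib.Helper28.U3S
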